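import Mathlib
import Cfsg.Agent.Lib.PGroup.Basic

set_option autoImplicit false

/-!
Elementary lemmas on finite `p`-groups with abelianization of order `p²`, used for the
criterion `|P : P'| = p²` in terms of centralizers of `p`-elements.
-/

namespace Cfsg.Agent.Lib.PSq

open Subgroup
open Cfsg.Agent.Lib.PGroup.Basic

section general

variable {T : Type*} [Group T]

/-- `T = D ⊔ ⟨g⟩`, all commutators of generators in the normal subgroup `W`: then `T' ≤ W`. -/
theorem commutator_le_of_sup_zpowers (D W : Subgroup T) [hW : W.Normal] (g : T)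
    (htop : D ⊔ zpowers g = ⊤)
    (h1 : ∀ d ∈ D, ∀ d' ∈ D, d * d' * d⁻¹ * d'⁻¹ ∈ W)
    (h2 : ∀ d ∈ D, d * g * d⁻¹ * g⁻¹ ∈ W) :
    commutator T ≤ W := by
  let f := QuotientGroup.mk' W
  have hf : ∀ x : T, f x = 1 ↔ x ∈ W := fun x => QuotientGroup.eq_one_iff x
  -- commutativity of the images
  have hc : ∀ x y : T, x * y * x⁻¹ * y⁻¹ ∈ W → f x * f y = f y * f x := by
    intro x y h
    have h3 := (hf _).mpr h
    simp only [map_mul, map_inv] at h3
    have h4 : f x * f y * (f x)⁻¹ * (f y)⁻¹ = 1 := h3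
    calc f x * f y = f x * f y * (f x)⁻¹ * (f y)⁻¹ * (f y * f x) := by group
      _ = f y * f x := by rw [h4, one_mul]
  have hDD : ∀ d ∈ D, ∀ d' ∈ D, f d * f d' = f d' * f d := fun d hd d' hd' => hc _ _ (h1 d hd d' hd')
  have hDg : ∀ d ∈ D, f d * f g = f g * f d := fun d hd => hc _ _ (h2 d hd)
  -- the centralizer of the image of `y` pulled back
  let C : T → Subgroup T := fun y => (Subgroup.centralizer {f y}).comap f
  have hC : ∀ x y : T, x ∈ C y ↔ f x * f y = f y * f x := by
    intro x y
    simp only [C, Subgroup.mem_comap, Subgroup.mem_centralizer_singleton_iff]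
  have step : ∀ y : T, (∀ d ∈ D, f d * f y = f y * f d) → f g * f y = f y * f g →
      ∀ x : T, f x * f y = f y * f x := by
    intro y h3 h4 x
    have hle : D ⊔ zpowers g ≤ C y := by
      refine sup_le (fun d hd => (hC d y).mpr (h3 d hd)) ?_
      rw [zpowers_le]
      exact (hC g y).mpr h4
    rw [htop] at hle
    exact (hC x y).mp (hle (mem_top x))
  have hg : ∀ x : T, f x * f g = f g * f x := step g hDg rfl
  have hd : ∀ d ∈ D, ∀ x : T, f x * f d = f d * f x := by
    intro d hd
    exact step d (fun d' hd' => hDD d' hd' d hd) ((hDg d hd).symm)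
  have hall : ∀ x y : T, f x * f y = f y * f x := by
    intro x y
    refine step y (fun d hdd => (hd d hdd y).symm) (hg y).symm x
  rw [commutator_def, Subgroup.commutator_le]
  intro x _ y _
  rw [← hf]
  simp only [commutatorElement_def, map_mul, map_inv]
  rw [hall x y]
  group

end general

section pgroup

variable {T : Type*} [Group T] [Finite T] {p : ℕ} [hp : Fact p.Prime]

theorem isCoatom_of_index_prime {H : Subgroup T} (hq : H.index.Prime) : IsCoatom H := by
  refine ⟨fun h => ?_, fun K hK => ?_⟩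
  · rw [h, Subgroup.index_top] at hq
    exact Nat.not_prime_one hq
  · have h1 := Subgroup.relIndex_mul_index hK.le
    have h2 : K.index ∣ H.index := ⟨_, by rw [← h1, mul_comm]⟩
    rcases (Nat.dvd_prime hq).mp h2 with h3 | h3
    · exact Subgroup.index_eq_one.mp h3
    · exfalso
      rw [h3] at h1
      have h4 : H.relIndex K = 1 := by
        have := hq.pos
        exact Nat.eq_of_mul_eq_mul_right this (by rw [h1, one_mul])
      exact hK.not_ge (Subgroup.relIndex_eq_one.mp h4)

theorem commutator_le_of_isCoatom (hT : IsPGroup p T) {M : Subgroup T} (hM : IsCoatom M) :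
    commutator T ≤ M := by
  have := normal_of_isCoatom hT hM
  have hcard : Nat.card (T ⧸ M) = p := index_eq_of_isCoatom hT hM
  have : IsCyclic (T ⧸ M) := isCyclic_of_prime_card hcard
  let : CommGroup (T ⧸ M) := IsCyclic.commGroup
  rw [commutator_def, Subgroup.commutator_le]
  intro x _ y _
  rw [← QuotientGroup.eq_one_iff]
  have : ((x * y * x⁻¹ * y⁻¹ : T) : T ⧸ M) = 1 := by
    have h : ∀ a b : T, ((a : T ⧸ M) * (b : T ⧸ M)) = (b : T ⧸ M) * (a : T ⧸ M) := fun a b =>
      mul_comm _ _
    simp only [QuotientGroup.mk_mul, QuotientGroup.mk_inv]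
    rw [h x y]
    group
  simp [commutatorElement_def]

theorem exists_isCoatom_ge {A : Subgroup T} (hA : A ≠ ⊤) : ∃ M : Subgroup T, IsCoatom M ∧ A ≤ M := by
  rcases eq_top_or_exists_le_coatom A with h | h
  · exact absurd h hA
  · obtain ⟨M, hM, hle⟩ := h
    exact ⟨M, hM, hle⟩

/-- The derived subgroup is non-generating. -/
theorem eq_top_of_sup_commutator (hT : IsPGroup p T) {A : Subgroup T} (h : A ⊔ commutator T = ⊤) :
    A = ⊤ := by
  by_contra hA
  obtain ⟨M, hM, hle⟩ := exists_isCoatom_ge hA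
  have : A ⊔ commutator T ≤ M := sup_le hle (commutator_le_of_isCoatom hT hM)
  rw [h] at this
  exact hM.1 (top_le_iff.mp this)

/-- If `A T'` has index dividing `p`, so does the normal subgroup `A`. -/
theorem index_dvd_of_sup_commutator (hT : IsPGroup p T) {A : Subgroup T} [hA : A.Normal]
    (h : (A ⊔ commutator T).index ∣ p) : A.index ∣ p := by
  rcases (Nat.dvd_prime hp.out).mp h with h1 | h1
  · have h2 : A ⊔ commutator T = ⊤ := Subgroup.index_eq_one.mp h1
    rw [eq_top_of_sup_commutator hT h2, Subgroup.index_top]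
    exact one_dvd _
  · -- pick `g` outside
    have hne : A ⊔ commutator T ≠ ⊤ := by
      intro h2
      rw [h2, Subgroup.index_top] at h1
      exact hp.out.one_lt.ne h1
    obtain ⟨g, hg⟩ : ∃ g, g ∉ A ⊔ commutator T := by
      by_contra hcon
      push_neg at hcon
      exact hne (eq_top_iff.mpr fun x _ => hcon x)
    have hco : IsCoatom (A ⊔ commutator T) := by
      have hq : (A ⊔ commutator T).index.Prime := by rw [h1]; exact hp.out
      exact isCoatom_of_index_prime hq
    have h3 : (A ⊔ commutator T) ⊔ zpowers g = ⊤ := by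
      apply hco.2
      refine lt_of_le_of_ne le_sup_left fun h4 => hg ?_
      rw [h4]
      exact Subgroup.mem_sup_right (mem_zpowers g)
    have h4 : (A ⊔ zpowers g) ⊔ commutator T = ⊤ := by
      rw [← h3]
      ac_rfl
    have h5 : A ⊔ zpowers g = ⊤ := eq_top_of_sup_commutator hT h4
    have h6 : commutator T ≤ A := by
      refine commutator_le_of_sup_zpowers A A g h5 ?_ ?_
      · intro d hd d' hd'
        exact A.mul_mem (A.mul_mem (A.mul_mem hd hd') (A.inv_mem hd)) (A.inv_mem hd')
      · intro d hd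
        have : d * g * d⁻¹ * g⁻¹ = d * (g * d⁻¹ * g⁻¹) := by group
        rw [this]
        exact A.mul_mem hd (hA.conj_mem _ (A.inv_mem hd) g)
    rw [sup_eq_left.mpr h6] at h1
    rw [h1]

theorem card_le_prime_of_commutator_index (hT : IsPGroup p T) (h : (commutator T).index ∣ p) :
    Nat.card T ∣ p := by
  have h1 : ((⊥ : Subgroup T) ⊔ commutator T).index ∣ p := by rwa [bot_sup_eq]
  have := index_dvd_of_sup_commutator hT h1
  rwa [Subgroup.index_bot] at this

/-- Index of the meet of two distinct coatoms. -/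
theorem index_inf_of_isCoatom (hT : IsPGroup p T) {M₁ M₂ : Subgroup T} (h₁ : IsCoatom M₁)
    (h₂ : IsCoatom M₂) (hne : M₁ ≠ M₂) : (M₁ ⊓ M₂).index = p ^ 2 := by
  have := normal_of_isCoatom hT h₁
  have := normal_of_isCoatom hT h₂
  have hsup : M₁ ⊔ M₂ = ⊤ := by
    by_contra h
    have h3 : M₁ ⊔ M₂ = M₁ := by
      by_contra h4
      exact h (h₁.2 _ (lt_of_le_of_ne le_sup_left (Ne.symm h4)))
    have h5 : M₁ ⊔ M₂ = M₂ := by
      by_contra h4
      exact h (h₂.2 _ (lt_of_le_of_ne le_sup_right (Ne.symm h4)))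
    exact hne (h3.symm.trans h5)
  have h3 : M₂.relIndex M₁ = p := by
    have h4 := Subgroup.relIndex_sup_right (H := M₁) (K := M₂)
    rw [hsup] at h4
    rw [← h4, Subgroup.relIndex_top_right]
    exact index_eq_of_isCoatom hT h₂
  rw [← Subgroup.inf_relIndex_right] at h3
  have h5 := Subgroup.relIndex_mul_index (H := M₂ ⊓ M₁) (K := M₁) inf_le_right
  rw [h3, index_eq_of_isCoatom hT h₁, inf_comm] at h5
  rw [← h5, pow_two]

/-- Two elements separating two coatoms generate a group with abelianization of order `p²`. -/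
theorem closure_eq_top_of_separating (hT : IsPGroup p T) (hidx : (commutator T).index = p ^ 2)
    {M₁ M₂ : Subgroup T} (h₁ : IsCoatom M₁) (h₂ : IsCoatom M₂) {d₁ d₂ : T}
    (hd₁ : d₁ ∉ M₁) (hd₂ : d₂ ∉ M₂) (hd₂' : d₂ ∈ M₁) :
    Subgroup.closure {d₁, d₂} = ⊤ := by
  by_contra hne
  have hne' : Subgroup.closure {d₁, d₂} ⊔ commutator T ≠ ⊤ := fun h =>
    hne (eq_top_of_sup_commutator hT h)
  obtain ⟨M₃, hM₃, hle⟩ := exists_isCoatom_ge hne'
  have h1 : d₁ ∈ M₃ := hle (Subgroup.mem_sup_left (Subgroup.subset_closure (by simp)))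
  have h2 : d₂ ∈ M₃ := hle (Subgroup.mem_sup_left (Subgroup.subset_closure (by simp)))
  have hne13 : M₁ ≠ M₃ := fun h => hd₁ (h ▸ h1)
  have hidx2 := index_inf_of_isCoatom hT h₁ hM₃ hne13
  have hle2 : commutator T ≤ M₁ ⊓ M₃ :=
    le_inf (commutator_le_of_isCoatom hT h₁) (commutator_le_of_isCoatom hT hM₃)
  have heq : commutator T = M₁ ⊓ M₃ := by
    apply Subgroup.eq_of_le_of_card_ge hle2
    have h3 := Subgroup.card_mul_index (commutator T)
    have h4 := Subgroup.card_mul_index (M₁ ⊓ M₃)
    rw [hidx] at h3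
    rw [hidx2] at h4
    have h5 : 0 < p ^ 2 := pow_pos hp.out.pos 2
    exact le_of_eq (Nat.eq_of_mul_eq_mul_right h5 (h4.trans h3.symm))
  have h5 : d₂ ∈ commutator T := by
    rw [heq]
    exact ⟨hd₂', h2⟩
  exact hd₂ (commutator_le_of_isCoatom hT h₂ h5)

/-- In a `p`-group with abelianization of order `p²`, if the separating elements commute the group is
commutative. -/
theorem commute_of_separating (hT : IsPGroup p T) (hidx : (commutator T).index = p ^ 2)
    {M₁ M₂ : Subgroup T} (h₁ : IsCoatom M₁) (h₂ : IsCoatom M₂) {d₁ d₂ : T}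
    (hd₁ : d₁ ∉ M₁) (hd₂ : d₂ ∉ M₂) (hd₂' : d₂ ∈ M₁) (hc : Commute d₁ d₂) (x y : T) :
    x * y = y * x := by
  have htop := closure_eq_top_of_separating hT hidx h₁ h₂ hd₁ hd₂ hd₂'
  have hcomm : ∀ a ∈ ({d₁, d₂} : Set T), ∀ b ∈ ({d₁, d₂} : Set T), a * b = b * a := by
    intro a ha b hb
    simp only [Set.mem_insert_iff, Set.mem_singleton_iff] at ha hb
    rcases ha with rfl | rfl <;> rcases hb with rfl | rfl
    · rfl
    · exact hc
    · exact hc.symm
    · rfl
  have h3 := Subgroup.isMulCommutative_closure hcomm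
  have hx : x ∈ Subgroup.closure {d₁, d₂} := by rw [htop]; trivial
  have hy : y ∈ Subgroup.closure {d₁, d₂} := by rw [htop]; trivial
  have := h3.is_comm.comm (⟨x, hx⟩ : Subgroup.closure ({d₁, d₂} : Set T)) ⟨y, hy⟩
  exact congrArg Subtype.val this

/-- Orbit-stabilizer bound: `|T : T'| ≤ |C_T(x)|`. -/
theorem commutator_index_le_card_centralizer (x : T) :
    (commutator T).index ≤ Nat.card (Subgroup.centralizer ({x} : Set T)) := by
  classical
  let C := Subgroup.centralizer ({x} : Set T)
  let ψ : T ⧸ C → commutator T := fun q =>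
    ⟨q.out * x * q.out⁻¹ * x⁻¹, by
      have := Subgroup.commutator_mem_commutator (H₁ := ⊤) (H₂ := ⊤) (g₁ := q.out) (g₂ := x)
        (mem_top _) (mem_top _)
      simpa [commutatorElement_def, commutator_def] using this⟩
  have hψ : Function.Injective ψ := by
    intro a b hab
    have h1 : a.out * x * a.out⁻¹ * x⁻¹ = b.out * x * b.out⁻¹ * x⁻¹ := congrArg Subtype.val hab
    have h2 : a.out * x * a.out⁻¹ = b.out * x * b.out⁻¹ := mul_right_cancel h1
    rw [← a.out_eq', ← b.out_eq', QuotientGroup.eq, Subgroup.mem_centralizer_singleton_iff]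
    calc a.out⁻¹ * b.out * x = a.out⁻¹ * (b.out * x * b.out⁻¹) * b.out := by group
      _ = a.out⁻¹ * (a.out * x * a.out⁻¹) * b.out := by rw [h2]
      _ = x * (a.out⁻¹ * b.out) := by group
  have h1 : C.index ≤ Nat.card (commutator T) := by
    rw [Subgroup.index]
    exact Nat.card_le_card_of_injective ψ hψ
  have h2 := Subgroup.card_mul_index (commutator T)
  have h3 := Subgroup.card_mul_index C
  have hpos : 0 < Nat.card T := Nat.card_pos
  have h4 : C.index * (commutator T).index ≤ Nat.card (commutator T) * (commutator T).index :=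
    Nat.mul_le_mul_right _ h1
  rw [h2] at h4
  have h5 : 0 < C.index := Nat.pos_of_ne_zero Subgroup.index_ne_zero_of_finite
  have h6 : (commutator T).index * C.index ≤ Nat.card C * C.index := by
    rw [h3, mul_comm]
    exact h4
  exact Nat.le_of_mul_le_mul_right h6 h5

/-- An element with centralizer of order `p²` forces abelianization of order `p²`. -/
theorem commutator_index_of_card_centralizer (hT : IsPGroup p T) (x : T)
    (hx : Nat.card (Subgroup.centralizer ({x} : Set T)) = p ^ 2) :
    (commutator T).index = p ^ 2 := by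
  have h1 := commutator_index_le_card_centralizer x
  rw [hx] at h1
  obtain ⟨k, hk⟩ := (hT.to_quotient (commutator T)).exists_card_eq
  have hk' : (commutator T).index = p ^ k := hk
  rw [hk'] at h1 ⊢
  have hk2 : k ≤ 2 := (Nat.pow_le_pow_iff_right hp.out.one_lt).mp h1
  suffices 2 ≤ k by rw [le_antisymm hk2 this]
  by_contra hlt
  push_neg at hlt
  have hdvd : (commutator T).index ∣ p := by
    rw [hk']
    have : p ^ k ∣ p ^ 1 := pow_dvd_pow p (by omega)
    rwa [pow_one] at this
  have hcard := card_le_prime_of_commutator_index hT hdvd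
  have h2 : p ^ 2 ∣ Nat.card T := by
    rw [← hx]
    exact Subgroup.card_subgroup_dvd_card _
  have h3 : p ^ 2 ≤ p := Nat.le_of_dvd hp.out.pos (h2.trans hcard)
  have h4 := hp.out.two_le
  nlinarith

end pgroup

end Cfsg.Agent.Lib.PSq
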