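import Mathlib
import Cfsg.Agent.Lib.PSq.Basic
import Cfsg.Agent.Lib.Transfer.Tate
import Cfsg.Agent.Lib.Transfer.Basic

set_option autoImplicit false

/-!
A version of Tate's theorem modulo the centralizer in `P` of a subgroup `L` normalized by `P`.
-/

namespace Cfsg.Agent.Lib.PSq

open Subgroup

variable {G : Type*} [Group G] [Finite G] {p : ℕ} [hp : Fact p.Prime]

/-- If `L` is normalized by the Sylow subgroup `P`, has trivial centre and no normal `p`-complement,
then `L ⊓ P` is not in the Frattini subgroup of `P` modulo `C_P(L)`. -/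
theorem exists_of_not_hasNormalPComplement (P : Sylow p G) (L : Subgroup G)
    (hPL : (P : Subgroup G) ≤ Subgroup.normalizer (L : Set G))
    (hZ : L ⊓ Subgroup.centralizer (L : Set G) = ⊥)
    (hnp : ¬ Cfsg.HasNormalPComplement p L) :
    ∃ M : Subgroup (P : Subgroup G), M ≠ ⊤ ∧
      (∀ t : (P : Subgroup G), (t : G) ∈ Subgroup.centralizer (L : Set G) → t ∈ M) ∧
      M ⊔ L.subgroupOf (P : Subgroup G) = ⊤ := by
  classical
  by_contra hcon
  push_neg at hcon
  -- the subgroup `X = L P`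
  let Pp : Subgroup G := P
  let X : Subgroup G := L ⊔ Pp
  have hLX : L ≤ X := le_sup_left
  have hPX : Pp ≤ X := le_sup_right
  have hXn : X ≤ Subgroup.normalizer (L : Set G) :=
    sup_le Subgroup.le_normalizer hPL
  let K : Subgroup G := Pp ⊓ Subgroup.centralizer (L : Set G)
  have hKP : K ≤ Pp := inf_le_left
  have hKX : K ≤ X := hKP.trans hPX
  have hXKn : X ≤ Subgroup.normalizer (K : Set G) := by
    refine sup_le ?_ ?_
    · intro l hl
      rw [Subgroup.mem_normalizer_iff]
      intro k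
      constructor
      · intro hk
        have h1 : l * k * l⁻¹ = k := by
          have h2 : l * k = k * l := Subgroup.mem_centralizer_iff.mp hk.2 l hl
          rw [h2]; group
        rw [h1]; exact hk
      · intro hk
        have hl' : l⁻¹ ∈ L := L.inv_mem hl
        have h0 : l⁻¹ * (l * k * l⁻¹) * l⁻¹⁻¹ = k := by group
        have h1 : l⁻¹ * (l * k * l⁻¹) * l⁻¹⁻¹ = l * k * l⁻¹ := by
          have h2 : l⁻¹ * (l * k * l⁻¹) = (l * k * l⁻¹) * l⁻¹ :=
            Subgroup.mem_centralizer_iff.mp hk.2 _ hl'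
          rw [h2]; group
        rw [← h0, h1]; exact hk
    · intro q hq
      rw [Subgroup.mem_normalizer_iff]
      have hqL := Subgroup.mem_normalizer_iff.mp (hPL hq)
      have key : ∀ (q : G), q ∈ Pp → ∀ k, k ∈ K → q * k * q⁻¹ ∈ K := by
        intro q hq k hk
        have hqL := Subgroup.mem_normalizer_iff.mp (hPL hq)
        refine ⟨Pp.mul_mem (Pp.mul_mem hq hk.1) (Pp.inv_mem hq), ?_⟩
        show q * k * q⁻¹ ∈ Subgroup.centralizer (L : Set G)
        rw [Subgroup.mem_centralizer_iff]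
        intro l hl
        have h1 : q⁻¹ * l * q ∈ L := by
          have := (Subgroup.mem_normalizer_iff.mp (hPL (Pp.inv_mem hq)) l).mp hl
          simpa using this
        have h2 := Subgroup.mem_centralizer_iff.mp hk.2 _ h1
        calc l * (q * k * q⁻¹) = q * ((q⁻¹ * l * q) * k) * q⁻¹ := by group
          _ = q * (k * (q⁻¹ * l * q)) * q⁻¹ := by rw [h2]
          _ = q * k * q⁻¹ * l := by group
      intro k
      refine ⟨key q hq k, fun h => ?_⟩
      have := key q⁻¹ (Pp.inv_mem hq) _ h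
      simpa [mul_assoc] using this
  have hL₀ : (L.subgroupOf X).Normal := (Subgroup.normal_subgroupOf_iff_le_normalizer hLX).mpr hXn
  have hK₀ : (K.subgroupOf X).Normal := (Subgroup.normal_subgroupOf_iff_le_normalizer hKX).mpr hXKn
  let π : X →* (X ⧸ K.subgroupOf X) := QuotientGroup.mk' _
  have hπs : Function.Surjective π := QuotientGroup.mk'_surjective _
  have hπ1 : ∀ x : X, π x = 1 ↔ (x : G) ∈ K := fun x => by
    rw [show π x = ((x : X) : X ⧸ K.subgroupOf X) from rfl, QuotientGroup.eq_one_iff,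
      Subgroup.mem_subgroupOf]
  let Lh : Subgroup (X ⧸ K.subgroupOf X) := (L.subgroupOf X).map π
  let Ph : Subgroup (X ⧸ K.subgroupOf X) := (Pp.subgroupOf X).map π
  have hLh : Lh.Normal := hL₀.map π hπs
  have hPh : IsPGroup p Ph := by
    have h1 : IsPGroup p (Pp.subgroupOf X) := P.2.comap_subtype
    exact h1.map π
  have hidx : ¬ p ∣ Ph.index := by
    intro h
    have h1 : Ph.index ∣ (Pp.subgroupOf X).index := Subgroup.index_map_dvd _ hπs
    have h2 : (Pp.subgroupOf X).index ∣ Pp.index := Subgroup.relIndex_dvd_index_of_le hPX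
    exact P.not_dvd_index (h.trans (h1.trans h2))
  have hsup : Lh ⊔ Ph = ⊤ := by
    rw [← Subgroup.map_sup, ← Subgroup.map_top_of_surjective π hπs]
    congr 1
    apply Subgroup.map_injective X.subtype_injective
    rw [Subgroup.map_sup, Subgroup.map_subgroupOf_eq_of_le hLX, Subgroup.map_subgroupOf_eq_of_le hPX,
      ← MonoidHom.range_eq_map, Subgroup.range_subtype]
  -- the map `P → Ph`
  let φ₀ : Pp →* (X ⧸ K.subgroupOf X) := π.comp (Subgroup.inclusion hPX)
  have hφ₀ : ∀ t : Pp, φ₀ t ∈ Ph := fun t => ⟨Subgroup.inclusion hPX t, t.2, rfl⟩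
  let φ : Pp →* Ph := φ₀.codRestrict Ph hφ₀
  have hφc : ∀ t : Pp, ((φ t : Ph) : X ⧸ K.subgroupOf X) = π (Subgroup.inclusion hPX t) := fun t => rfl
  have hφs : Function.Surjective φ := by
    rintro ⟨y, q, hq, rfl⟩
    refine ⟨⟨q, hq⟩, Subtype.ext ?_⟩
    rw [hφc]
    rfl
  have hng : ∀ Mh : Subgroup Ph, Mh ⊔ Lh.subgroupOf Ph = ⊤ → Mh = ⊤ := by
    intro Mh hMh
    by_contra hne
    have hM1 : Mh.comap φ ≠ ⊤ := by
      intro h
      apply hne
      rw [eq_top_iff]
      intro y _
      obtain ⟨t, rfl⟩ := hφs y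
      have : t ∈ Mh.comap φ := by rw [h]; trivial
      exact this
    have hM2 : ∀ t : (P : Subgroup G), (t : G) ∈ Subgroup.centralizer (L : Set G) → t ∈ Mh.comap φ := by
      intro t ht
      have h1 : φ t = 1 := by
        apply Subtype.ext
        rw [hφc]
        exact (hπ1 _).mpr ⟨t.2, ht⟩
      show φ t ∈ Mh
      rw [h1]
      exact Mh.one_mem
    apply hcon _ hM1 hM2
    rw [eq_top_iff]
    intro t _
    have hy : φ t ∈ Mh ⊔ Lh.subgroupOf Ph := by rw [hMh]; trivial
    have hNn : (Lh.subgroupOf Ph).Normal := by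
      have := hLh
      infer_instance
    rw [← SetLike.mem_coe, Subgroup.mul_normal] at hy
    obtain ⟨m, hm, y, hy, hmy⟩ := hy
    -- `y` comes from `L ⊓ P`
    have hyL : (y : X ⧸ K.subgroupOf X) ∈ Lh := hy
    obtain ⟨l₀, hl₀, hl₀y⟩ := hyL
    obtain ⟨q₀, hq₀, hq₀y⟩ := y.2
    have hk : π (l₀⁻¹ * q₀) = 1 := by
      rw [map_mul, map_inv, hl₀y, hq₀y, inv_mul_cancel]
    have hk' : ((l₀⁻¹ * q₀ : X) : G) ∈ K := (hπ1 _).mp hk
    have hlP : ((l₀ : X) : G) ∈ Pp := by
      have h1 : ((l₀ : X) : G) = (q₀ : G) * (((l₀⁻¹ * q₀ : X) : G))⁻¹ := by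
        simp
      rw [h1]
      exact Pp.mul_mem hq₀ (Pp.inv_mem (hKP hk'))
    let y' : Pp := ⟨(l₀ : X), hlP⟩
    have hy'L : y' ∈ L.subgroupOf Pp := hl₀
    have hy'φ : φ y' = y := by
      apply Subtype.ext
      rw [hφc, ← hl₀y]
      rfl
    have htm : t * y'⁻¹ ∈ Mh.comap φ := by
      show φ (t * y'⁻¹) ∈ Mh
      rw [map_mul, map_inv, hy'φ]
      have : φ t * y⁻¹ = m := by
        rw [← hmy]
        simp
      rw [this]
      exact hm
    have : t = (t * y'⁻¹) * y' := by group
    rw [this]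
    exact Subgroup.mul_mem_sup htm hy'L
  have key := Cfsg.Agent.Lib.Transfer.Tate.hasNormalPComplement_of_nongenerating Ph hPh hidx Lh hsup hng
  apply hnp
  let f : L →* (X ⧸ K.subgroupOf X) := π.comp (Subgroup.inclusion hLX)
  have hf : Function.Injective f := by
    rw [injective_iff_map_eq_one]
    intro l hl
    have h1 : ((Subgroup.inclusion hLX l : X) : G) ∈ K := (hπ1 _).mp hl
    have h2 : (l : G) ∈ L ⊓ Subgroup.centralizer (L : Set G) := ⟨l.2, h1.2⟩
    rw [hZ, Subgroup.mem_bot] at h2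
    exact Subtype.ext h2
  exact Cfsg.Agent.Lib.Transfer.Basic.HasNormalPComplement_of_injective f hf key

end Cfsg.Agent.Lib.PSq
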