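import Mathlib
import Cfsg.Agent.Lib.PSq.Tate
import Cfsg.Agent.Lib.Basic.PCore

set_option autoImplicit false

namespace Cfsg.Agent.Lib.PSq

open Subgroup
open Cfsg.Agent.Lib.PGroup.Basic

variable {G : Type*} [Group G] [Finite G] {p : ℕ} [hp : Fact p.Prime]

/-- Two commuting subgroups with trivial centre, normalized by `P`, with no normal `p`-complement force
`P` to be commutative when `|P : P'| = p²`. -/
theorem comm_of_two (P : Sylow p G) (hidx : (commutator (P : Subgroup G)).index = p ^ 2)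
    (L₁ L₂ : Subgroup G)
    (h₁ : (P : Subgroup G) ≤ Subgroup.normalizer (L₁ : Set G))
    (h₂ : (P : Subgroup G) ≤ Subgroup.normalizer (L₂ : Set G))
    (hc : ∀ a ∈ L₁, ∀ b ∈ L₂, a * b = b * a)
    (hZ₁ : L₁ ⊓ Subgroup.centralizer (L₁ : Set G) = ⊥)
    (hZ₂ : L₂ ⊓ Subgroup.centralizer (L₂ : Set G) = ⊥)
    (hn₁ : ¬ Cfsg.HasNormalPComplement p L₁) (hn₂ : ¬ Cfsg.HasNormalPComplement p L₂)
    (x y : (P : Subgroup G)) : x * y = y * x := by
  have hT : IsPGroup p (P : Subgroup G) := P.2
  obtain ⟨M₁, hM₁, hC₁, hS₁⟩ := exists_of_not_hasNormalPComplement P L₁ h₁ hZ₁ hn₁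
  obtain ⟨M₂, hM₂, hC₂, hS₂⟩ := exists_of_not_hasNormalPComplement P L₂ h₂ hZ₂ hn₂
  obtain ⟨N₁, hN₁, hle₁⟩ := exists_isCoatom_ge hM₁
  obtain ⟨N₂, hN₂, hle₂⟩ := exists_isCoatom_ge hM₂
  obtain ⟨d₁, hd₁, hd₁'⟩ : ∃ d, d ∈ L₁.subgroupOf (P : Subgroup G) ∧ d ∉ N₁ := by
    by_contra hcon
    push_neg at hcon
    have : M₁ ⊔ L₁.subgroupOf (P : Subgroup G) ≤ N₁ := sup_le hle₁ hcon
    rw [hS₁] at this
    exact hN₁.1 (top_le_iff.mp this)
  obtain ⟨d₂, hd₂, hd₂'⟩ : ∃ d, d ∈ L₂.subgroupOf (P : Subgroup G) ∧ d ∉ N₂ := by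
    by_contra hcon
    push_neg at hcon
    have : M₂ ⊔ L₂.subgroupOf (P : Subgroup G) ≤ N₂ := sup_le hle₂ hcon
    rw [hS₂] at this
    exact hN₂.1 (top_le_iff.mp this)
  have hd21 : d₂ ∈ N₁ := by
    apply hle₁
    apply hC₁
    rw [Subgroup.mem_centralizer_iff]
    intro l hl
    exact hc l hl _ hd₂
  refine commute_of_separating hT hidx hN₁ hN₂ hd₁' hd₂' hd21 ?_ x y
  apply Subtype.ext
  exact hc _ hd₁ _ hd₂

omit hp in
theorem card_inf_eq (N H : Subgroup G) : Nat.card (N.subgroupOf H) = Nat.card ↥(N ⊓ H) := by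
  rw [← Subgroup.subgroupOf_map_subtype, Subgroup.card_map_of_injective H.subtype_injective]

/-- Upper bound for the `p`-part of a centralizer. -/
theorem factorization_card_centralizer_le (N : Subgroup G) [hN : N.Normal] (x : G) :
    (Nat.card (Subgroup.centralizer ({x} : Set G))).factorization p ≤
      (Nat.card ↥(N ⊓ Subgroup.centralizer ({x} : Set G))).factorization p +
        N.index.factorization p := by
  set H := Subgroup.centralizer ({x} : Set G) with hH
  have h1 := Subgroup.card_mul_index (N.subgroupOf H)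
  rw [card_inf_eq] at h1
  have h2 : (N.subgroupOf H).index ∣ N.index := Subgroup.relIndex_dvd_index_of_normal N H
  have hpos1 : Nat.card ↥(N ⊓ H) ≠ 0 := Nat.card_pos.ne'
  have hpos2 : (N.subgroupOf H).index ≠ 0 := Subgroup.index_ne_zero_of_finite
  have hpos3 : N.index ≠ 0 := Subgroup.index_ne_zero_of_finite
  rw [← h1, Nat.factorization_mul hpos1 hpos2, Finsupp.add_apply]
  have h3 := (Nat.factorization_le_iff_dvd hpos2 hpos3).mpr h2 p
  omega

/-- The `p`-part of the index of a normal subgroup is seen in a Sylow subgroup. -/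
theorem factorization_index_eq (P : Sylow p G) (N : Subgroup G) [hN : N.Normal] :
    N.index.factorization p = (N.subgroupOf (P : Subgroup G)).index.factorization p := by
  have h1 := Subgroup.relIndex_sup_right (H := (P : Subgroup G)) (K := N)
  have h2 := Subgroup.relIndex_mul_index (H := N) (K := (P : Subgroup G) ⊔ N) le_sup_right
  have h3 : ¬ p ∣ ((P : Subgroup G) ⊔ N).index := fun h =>
    P.not_dvd_index (h.trans (Subgroup.index_dvd_of_le le_sup_left))
  rw [h1] at h2
  have hpos1 : N.relIndex (P : Subgroup G) ≠ 0 := by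
    show (N.subgroupOf (P : Subgroup G)).index ≠ 0
    exact Subgroup.index_ne_zero_of_finite
  have hpos2 : ((P : Subgroup G) ⊔ N).index ≠ 0 := Subgroup.index_ne_zero_of_finite
  rw [← h2, Nat.factorization_mul hpos1 hpos2, Finsupp.add_apply,
    Nat.factorization_eq_zero_of_not_dvd h3, add_zero]
  rfl

/-- Lower bound for the `p`-part of a centralizer. -/
theorem two_le_factorization (P : Sylow p G) (N : Subgroup G) [hN : N.Normal] {x : G}
    (hxP : x ∈ (P : Subgroup G)) (hxN : x ∉ N) (hne : N.subgroupOf (P : Subgroup G) ≠ ⊥) :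
    2 ≤ (Nat.card (Subgroup.centralizer ({x} : Set G))).factorization p := by
  have hT : IsPGroup p (P : Subgroup G) := P.2
  have h0 := inf_center_ne_bot hT hne
  obtain ⟨⟨z, hz⟩, hz1⟩ := Subgroup.ne_bot_iff_exists_ne_one.mp h0
  have hz1' : z ≠ 1 := fun h => hz1 (Subtype.ext h)
  have hzN : ((z : (P : Subgroup G)) : G) ∈ N := hz.1
  let xt : (P : Subgroup G) := ⟨x, hxP⟩
  let c : Subgroup (P : Subgroup G) := Subgroup.centralizer ({xt} : Set _)
  have hzc : z ∈ c := by
    rw [Subgroup.mem_centralizer_singleton_iff]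
    exact (Subgroup.mem_center_iff.mp hz.2 xt).symm
  have hxc : xt ∈ c := by
    rw [Subgroup.mem_centralizer_singleton_iff]
  have hcp : IsPGroup p c := hT.to_subgroup c
  obtain ⟨m, hm⟩ := hcp.exists_card_eq
  have hm0 : m ≠ 0 := by
    rintro rfl
    rw [pow_zero] at hm
    have : Subsingleton c := (Nat.card_eq_one_iff_unique.mp hm).1
    have h1 : (⟨z, hzc⟩ : c) = 1 := Subsingleton.elim _ _
    exact hz1' (congrArg Subtype.val h1)
  have hm1 : m ≠ 1 := by
    rintro rfl
    rw [pow_one] at hm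
    have h1 : (⟨xt, hxc⟩ : c) ∈ Subgroup.zpowers (⟨z, hzc⟩ : c) := by
      refine mem_zpowers_of_prime_card hm ?_
      intro h2
      exact hz1' (congrArg Subtype.val h2)
    obtain ⟨k, hk⟩ := h1
    have h2 : z ^ k = xt := congrArg Subtype.val hk
    apply hxN
    have h3 : ((z ^ k : (P : Subgroup G)) : G) = x := congrArg Subtype.val h2
    rw [← h3]
    simpa using N.zpow_mem hzN k
  have hm2 : 2 ≤ m := by omega
  have hle : c.map (P : Subgroup G).subtype ≤ Subgroup.centralizer ({x} : Set G) := by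
    rintro _ ⟨t, ht, rfl⟩
    rw [Subgroup.mem_centralizer_singleton_iff]
    have := Subgroup.mem_centralizer_singleton_iff.mp ht
    exact congrArg Subtype.val this
  have hd : p ^ m ∣ Nat.card (Subgroup.centralizer ({x} : Set G)) := by
    have h1 := Subgroup.card_dvd_of_le hle
    rw [Subgroup.card_map_of_injective (P : Subgroup G).subtype_injective, hm] at h1
    exact h1
  have hd2 : p ^ 2 ∣ Nat.card (Subgroup.centralizer ({x} : Set G)) := (pow_dvd_pow p hm2).trans hd
  exact (hp.out.pow_dvd_iff_le_factorization Nat.card_pos.ne').mp hd2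

/-- The concluding computation: an element of `P` outside `N`. -/
theorem factorization_eq_two (P : Sylow p G) (N : Subgroup G) [hN : N.Normal] {x : G}
    (hxP : x ∈ (P : Subgroup G)) (hxN : x ∉ N) (hne : N.subgroupOf (P : Subgroup G) ≠ ⊥)
    (hidx : (N.subgroupOf (P : Subgroup G)).index = p)
    (hC : (Nat.card ↥(N ⊓ Subgroup.centralizer ({x} : Set G))).factorization p ≤ 1) :
    (Nat.card (Subgroup.centralizer ({x} : Set G))).factorization p = 2 := by
  have h1 := two_le_factorization P N hxP hxN hne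
  have h2 := factorization_card_centralizer_le (p := p) N x
  rw [factorization_index_eq P N, hidx, hp.out.factorization_self] at h2
  omega

/-- Elements of `P` have `p`-power order. -/
theorem exists_orderOf_eq (P : Sylow p G) {x : G} (hx : x ∈ (P : Subgroup G)) :
    ∃ k : ℕ, orderOf x = p ^ k := by
  have := P.2 ⟨x, hx⟩
  obtain ⟨k, hk⟩ := this
  have h1 : x ^ p ^ k = 1 := by
    have := congrArg Subtype.val hk
    simpa using this
  obtain ⟨j, -, hj⟩ := (Nat.dvd_prime_pow hp.out).mp (orderOf_dvd_of_pow_eq_one h1)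
  exact ⟨j, hj⟩

/-! ### The case of a normal abelian subgroup -/

section abelian

variable {T : Type*} [Group T] [Finite T]

/-- Fixed points in a normal abelian subgroup of prime index. -/
theorem card_inf_centralizer (hT : IsPGroup p T) (hidx : (commutator T).index = p ^ 2)
    (A : Subgroup T) [hA : A.Normal] (hab : ∀ a ∈ A, ∀ b ∈ A, a * b = b * a) (hAi : A.index = p)
    {r : T} (hr : r ∉ A) : Nat.card ↥(A ⊓ Subgroup.centralizer ({r} : Set T)) = p := by
  classical
  have hco : IsCoatom A := isCoatom_of_index_prime (by rw [hAi]; exact hp.out)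
  have htop : A ⊔ zpowers r = ⊤ := by
    apply hco.2
    refine lt_of_le_of_ne le_sup_left fun h4 => hr ?_
    rw [h4]
    exact Subgroup.mem_sup_right (mem_zpowers r)
  have hmem : ∀ a : A, (a : T) * r * (a : T)⁻¹ * r⁻¹ ∈ A := by
    intro a
    have : (a : T) * r * (a : T)⁻¹ * r⁻¹ = (a : T) * (r * (a : T)⁻¹ * r⁻¹) := by group
    rw [this]
    exact A.mul_mem a.2 (hA.conj_mem _ (A.inv_mem a.2) r)
  let f : A →* A :=
    { toFun := fun a => ⟨(a : T) * r * (a : T)⁻¹ * r⁻¹, hmem a⟩
      map_one' := by apply Subtype.ext; simp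
      map_mul' := by
        intro a b
        apply Subtype.ext
        simp only [Subgroup.coe_mul]
        have h1 : (r * (a : T)⁻¹ * r⁻¹) * ((b : T) * r * (b : T)⁻¹ * r⁻¹) =
            ((b : T) * r * (b : T)⁻¹ * r⁻¹) * (r * (a : T)⁻¹ * r⁻¹) :=
          hab _ (hA.conj_mem _ (A.inv_mem a.2) r) _ (hmem b)
        calc (a : T) * b * r * ((a : T) * b)⁻¹ * r⁻¹
            = (a : T) * ((b : T) * r * (b : T)⁻¹ * r⁻¹) * r * (a : T)⁻¹ * r⁻¹ := by group
          _ = (a : T) * (((b : T) * r * (b : T)⁻¹ * r⁻¹) * (r * (a : T)⁻¹ * r⁻¹)) := by group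
          _ = (a : T) * ((r * (a : T)⁻¹ * r⁻¹) * ((b : T) * r * (b : T)⁻¹ * r⁻¹)) := by rw [h1]
          _ = (a : T) * r * (a : T)⁻¹ * r⁻¹ * ((b : T) * r * (b : T)⁻¹ * r⁻¹) := by group }
  have hf : ∀ a : A, ((f a : A) : T) = (a : T) * r * (a : T)⁻¹ * r⁻¹ := fun a => rfl
  let I : Subgroup T := f.range.map A.subtype
  have hIA : I ≤ A := by
    rintro _ ⟨_, ⟨a, rfl⟩, rfl⟩
    exact (f a).2
  have hIn : I.Normal := by
    have hle : A ⊔ zpowers r ≤ Subgroup.normalizer (I : Set T) := by
      refine sup_le ?_ ?_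
      · intro a ha
        rw [Subgroup.mem_normalizer_iff]
        intro i
        have h0 : ∀ i ∈ A, a * i * a⁻¹ = i := by
          intro i hi
          rw [hab a ha i hi]
          group
        constructor
        · intro hi
          rw [h0 i (hIA hi)]
          exact hi
        · intro hi
          have h1 : a⁻¹ * (a * i * a⁻¹) * a = i := by group
          have h2 : a * i * a⁻¹ ∈ A := hIA hi
          have h3 : a⁻¹ * (a * i * a⁻¹) * a = a * i * a⁻¹ := by
            have := h0 (a * i * a⁻¹) h2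
            have h4 : a⁻¹ * (a * i * a⁻¹) = (a * i * a⁻¹) * a⁻¹ := hab _ (A.inv_mem ha) _ h2
            rw [h4]
            group
          rw [← h1, h3]
          exact hi
      · rw [zpowers_le, Subgroup.mem_normalizer_iff]
        -- conjugation by `r`
        have key : ∀ (s : T), (∀ a ∈ A, s * a * s⁻¹ ∈ A) → Commute s r → ∀ i ∈ I, s * i * s⁻¹ ∈ I := by
          rintro s hs hsr _ ⟨_, ⟨a, rfl⟩, rfl⟩
          refine ⟨f ⟨s * a * s⁻¹, hs a a.2⟩, ⟨_, rfl⟩, ?_⟩
          simp only [Subgroup.subtype_apply, hf]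
          have h3 : r * s⁻¹ = s⁻¹ * r := (hsr.inv_left).eq.symm
          calc s * (a : T) * s⁻¹ * r * (s * (a : T) * s⁻¹)⁻¹ * r⁻¹
              = s * (a : T) * (s⁻¹ * r) * s * (a : T)⁻¹ * (s⁻¹ * r⁻¹) := by group
            _ = s * (a : T) * (r * s⁻¹) * s * (a : T)⁻¹ * (s⁻¹ * r⁻¹) := by rw [h3]
            _ = s * (a : T) * r * (a : T)⁻¹ * (s⁻¹ * r⁻¹) := by group
            _ = s * ((a : T) * r * (a : T)⁻¹ * r⁻¹) * s⁻¹ := by
              have h4 : s⁻¹ * r⁻¹ = r⁻¹ * s⁻¹ := (hsr.inv_left.inv_right).eq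
              rw [h4]
              group
        intro i
        refine ⟨key r (fun a ha => hA.conj_mem a ha r) (Commute.refl r) i, fun h => ?_⟩
        have := key r⁻¹ (fun a ha => by simpa using hA.conj_mem a ha r⁻¹)
          (Commute.refl r).inv_left _ h
        simpa [mul_assoc] using this
    rw [htop] at hle
    exact Subgroup.normalizer_eq_top_iff.mp (top_le_iff.mp hle)
  have hle1 : commutator T ≤ I := by
    refine commutator_le_of_sup_zpowers A I r htop ?_ ?_
    · intro d hd d' hd'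
      have : d * d' * d⁻¹ * d'⁻¹ = 1 := by
        rw [hab d hd d' hd']
        group
      rw [this]
      exact I.one_mem
    · intro d hd
      exact ⟨f ⟨d, hd⟩, ⟨_, rfl⟩, rfl⟩
  have hle2 : I ≤ commutator T := by
    rintro _ ⟨_, ⟨a, rfl⟩, rfl⟩
    have := Subgroup.commutator_mem_commutator (H₁ := ⊤) (H₂ := ⊤) (g₁ := (a : T)) (g₂ := r)
      (mem_top _) (mem_top _)
    show (a : T) * r * (a : T)⁻¹ * r⁻¹ ∈ commutator T
    rw [_root_.commutator_def]
    simpa [commutatorElement_def] using this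
  have hI : I = commutator T := le_antisymm hle2 hle1
  -- counting
  have h1 := Subgroup.card_mul_index f.ker
  have h2 : f.ker.index = Nat.card f.range := Subgroup.index_ker f
  have h3 : Nat.card f.range = Nat.card I := (Subgroup.card_map_of_injective A.subtype_injective).symm
  have h4 := Subgroup.card_mul_index I
  rw [hI, hidx] at h4
  have h5 := Subgroup.card_mul_index A
  rw [hAi] at h5
  have h6 : f.ker.map A.subtype = A ⊓ Subgroup.centralizer ({r} : Set T) := by
    ext y
    constructor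
    · rintro ⟨a, ha, rfl⟩
      have h7 : f a = 1 := ha
      have h8 : (a : T) * r * (a : T)⁻¹ * r⁻¹ = 1 := congrArg Subtype.val h7
      refine ⟨a.2, ?_⟩
      show (a : T) ∈ Subgroup.centralizer ({r} : Set T)
      rw [Subgroup.mem_centralizer_singleton_iff]
      calc (a : T) * r = ((a : T) * r * (a : T)⁻¹ * r⁻¹) * (r * (a : T)) := by group
        _ = r * (a : T) := by rw [h8, one_mul]
    · rintro ⟨hy, hy2⟩
      refine ⟨⟨y, hy⟩, ?_, rfl⟩
      show f ⟨y, hy⟩ = 1
      apply Subtype.ext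
      have h7 : y * r = r * y := Subgroup.mem_centralizer_singleton_iff.mp hy2
      show y * r * y⁻¹ * r⁻¹ = 1
      rw [h7]
      group
  rw [← h6, Subgroup.card_map_of_injective A.subtype_injective]
  -- |A| = |ker| |I|, |T| = |A| p = |I| p²
  rw [h2, h3] at h1
  have hIc : Nat.card I * p ^ 2 = Nat.card T := by rw [hI]; exact h4
  have h7 : Nat.card f.ker * Nat.card I * p = Nat.card I * p ^ 2 := by
    rw [h1, h5, hIc]
  have hIpos : 0 < Nat.card I := Nat.card_pos
  have h8 : Nat.card f.ker * p = p ^ 2 := by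
    apply Nat.eq_of_mul_eq_mul_left hIpos
    rw [← h7]
    ring
  have hppos := hp.out.pos
  exact Nat.eq_of_mul_eq_mul_right hppos (by rw [h8]; ring)

end abelian

end Cfsg.Agent.Lib.PSq
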