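import Mathlib
import Cfsg.Agent.Lib.PSq.Local
import Cfsg.Agent.Lib.Transfer.Basic

set_option autoImplicit false

namespace Cfsg.Agent.Lib.PSq

open Subgroup
open Cfsg.Agent.Lib.PGroup.Basic
open Cfsg.Agent.Lib.Transfer.Basic

variable {G : Type*} [Group G] [Finite G] {p : ℕ} [hp : Fact p.Prime]

/-- Minimal normal subgroups. -/
structure IsMinN (N : Subgroup G) : Prop where
  normal : N.Normal
  ne_bot : N ≠ ⊥
  min : ∀ K : Subgroup G, K.Normal → K ≤ N → K = ⊥ ∨ K = N

omit hp in
theorem exists_isMinN_le (X : Subgroup G) (hX : X.Normal) (hne : X ≠ ⊥) :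
    ∃ N : Subgroup G, N ≤ X ∧ IsMinN N := by
  have hwf : WellFounded ((· < ·) : Subgroup G → Subgroup G → Prop) := wellFounded_lt
  obtain ⟨N, hN, hmin⟩ := hwf.has_min {K : Subgroup G | K.Normal ∧ K ≠ ⊥ ∧ K ≤ X} ⟨X, hX, hne, le_rfl⟩
  refine ⟨N, hN.2.2, hN.1, hN.2.1, fun K hK hle => ?_⟩
  by_contra hcon
  push_neg at hcon
  exact hmin K ⟨hK, hcon.1, hle.trans hN.2.2⟩ (lt_of_le_of_ne hle hcon.2)

/-- The conclusion of the criterion. -/
def Good (p : ℕ) (x : G) : Prop :=
  (∃ k : ℕ, orderOf x = p ^ k) ∧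
    (Nat.card (Subgroup.centralizer ({x} : Set G))).factorization p = 2

/-- `J = A T'` has index dividing `p` when `A` is not in `T'`. -/
theorem index_sup_dvd {T : Type*} [Group T] [Finite T] (hidx : (commutator T).index = p ^ 2)
    {A : Subgroup T} (hA : ¬ A ≤ commutator T) : (A ⊔ commutator T).index ∣ p := by
  have h := Subgroup.relIndex_mul_index (H := commutator T) (K := A ⊔ commutator T) le_sup_right
  rw [hidx] at h
  have h1 : (A ⊔ commutator T).index ∣ p ^ 2 := ⟨_, by rw [← h, mul_comm]⟩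
  obtain ⟨k, hk, hk2⟩ := (Nat.dvd_prime_pow hp.out).mp h1
  rw [hk2] at h ⊢
  rcases Nat.lt_or_ge k 2 with hlt | hge
  · have : p ^ k ∣ p ^ 1 := pow_dvd_pow p (by omega)
    rwa [pow_one] at this
  · have hk3 : k = 2 := by omega
    subst hk3
    exfalso
    have h2 : (commutator T).relIndex (A ⊔ commutator T) = 1 :=
      Nat.eq_of_mul_eq_mul_right (pow_pos hp.out.pos 2) (by rw [h, one_mul])
    exact hA ((le_sup_left.trans (Subgroup.relIndex_eq_one.mp h2)))

/-- The case of a minimal normal `p`-subgroup. -/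
theorem case_pgroup (P : Sylow p G) (hidx : (commutator (P : Subgroup G)).index = p ^ 2)
    (hcore' : (⁅(P : Subgroup G), (P : Subgroup G)⁆).normalCore = ⊥) (N : Subgroup G)
    (hN : IsMinN N) (hNp : IsPGroup p N) :
    (∃ x : G, Good p x) ∨ ∀ x y : (P : Subgroup G), x * y = y * x := by
  have hNn := hN.normal
  have hT : IsPGroup p (P : Subgroup G) := P.2
  have hNP : N ≤ P := hNp.le_sylow_of_normal P
  -- `N` is abelian
  have hab : ∀ a ∈ N, ∀ b ∈ N, a * b = b * a := by
    have hC : ⁅N, N⁆.Normal := inferInstance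
    rcases hN.min _ hC (Subgroup.commutator_le_left N N) with h | h
    · intro a ha b hb
      have h1 := Subgroup.commutator_mem_commutator ha hb
      rw [h, Subgroup.mem_bot] at h1
      exact commutatorElement_eq_one_iff_mul_comm.mp h1
    · exfalso
      have hnil : Group.IsNilpotent N := hNp.isNilpotent
      have hne : (⊤ : Subgroup N) ≠ ⊥ := by
        intro h1
        apply hN.ne_bot
        rw [eq_bot_iff]
        intro x hx
        have : (⟨x, hx⟩ : N) ∈ (⊤ : Subgroup N) := mem_top _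
        rw [h1, Subgroup.mem_bot] at this
        simpa using congrArg Subtype.val this
      apply Cfsg.Agent.Lib.Transfer.Tate.not_le_commutator_top (⊤ : Subgroup N) hne
      intro x _
      have hx : (x : G) ∈ ⁅N, N⁆ := by rw [h]; exact x.2
      rw [← Subgroup.map_subtype_commutator] at hx
      obtain ⟨y, hy, hyx⟩ := hx
      have : y = x := Subtype.ext hyx
      rw [← this]
      rw [_root_.commutator_def] at hy
      exact hy
  let A : Subgroup (P : Subgroup G) := N.subgroupOf (P : Subgroup G)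
  have hAn : A.Normal := inferInstance
  have hA : ¬ A ≤ commutator (P : Subgroup G) := by
    intro hle
    have h1 : N ≤ ⁅(P : Subgroup G), (P : Subgroup G)⁆ := by
      intro n hn
      have h2 : (⟨n, hNP hn⟩ : (P : Subgroup G)) ∈ A := hn
      have h3 := hle h2
      rw [← Subgroup.map_subtype_commutator]
      exact ⟨_, h3, rfl⟩
    have h4 : N ≤ (⁅(P : Subgroup G), (P : Subgroup G)⁆).normalCore :=
      (Subgroup.normal_le_normalCore).mpr h1
    rw [hcore'] at h4
    exact hN.ne_bot (le_bot_iff.mp h4)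
  have hdvd := index_dvd_of_sup_commutator hT (index_sup_dvd hidx hA)
  rcases (Nat.dvd_prime hp.out).mp hdvd with h1 | h1
  · right
    intro x y
    have hA1 : A = ⊤ := Subgroup.index_eq_one.mp h1
    have hx : x ∈ A := by rw [hA1]; trivial
    have hy : y ∈ A := by rw [hA1]; trivial
    exact Subtype.ext (hab _ hx _ hy)
  · left
    have hne : A ≠ ⊤ := by
      intro h2
      rw [h2, Subgroup.index_top] at h1
      exact hp.out.one_lt.ne h1
    obtain ⟨r, hr⟩ : ∃ r, r ∉ A := by
      by_contra hcon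
      push_neg at hcon
      exact hne (eq_top_iff.mpr fun x _ => hcon x)
    have hC := card_inf_centralizer hT hidx A (fun a ha b hb => Subtype.ext (hab _ ha _ hb)) h1 hr
    have hmap : (A ⊓ Subgroup.centralizer ({r} : Set _)).map (P : Subgroup G).subtype =
        N ⊓ Subgroup.centralizer ({(r : G)} : Set G) := by
      ext y
      constructor
      · rintro ⟨a, ⟨ha1, ha2⟩, rfl⟩
        refine ⟨ha1, ?_⟩
        show (a : G) ∈ Subgroup.centralizer ({(r : G)} : Set G)
        rw [Subgroup.mem_centralizer_singleton_iff]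
        exact congrArg Subtype.val (Subgroup.mem_centralizer_singleton_iff.mp ha2)
      · rintro ⟨hy1, hy2⟩
        refine ⟨⟨y, hNP hy1⟩, ⟨hy1, ?_⟩, rfl⟩
        show (⟨y, hNP hy1⟩ : (P : Subgroup G)) ∈ Subgroup.centralizer ({r} : Set _)
        rw [Subgroup.mem_centralizer_singleton_iff]
        exact Subtype.ext (Subgroup.mem_centralizer_singleton_iff.mp hy2)
    have hC' : Nat.card ↥(N ⊓ Subgroup.centralizer ({(r : G)} : Set G)) = p := by
      rw [← hmap, Subgroup.card_map_of_injective (P : Subgroup G).subtype_injective, hC]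
    refine ⟨(r : G), exists_orderOf_eq P r.2, ?_⟩
    have hAne : A ≠ ⊥ := by
      intro h2
      apply hN.ne_bot
      rw [eq_bot_iff]
      intro x hx
      have : (⟨x, hNP hx⟩ : (P : Subgroup G)) ∈ A := hx
      rw [h2, Subgroup.mem_bot] at this
      simpa using congrArg Subtype.val this
    refine factorization_eq_two P N r.2 hr hAne h1 ?_
    rw [hC', hp.out.factorization_self]

/-- Non-`p`-group minimal normal subgroups have no normal `p`-complement when `O_{p'}(G) = 1`. -/
theorem not_hnpc (hcore : Cfsg.pPrimeCore p G = ⊥) (N : Subgroup G) (hN : IsMinN N)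
    (hNp : ¬ IsPGroup p N) : ¬ Cfsg.HasNormalPComplement p N := by
  intro h
  rw [hasNormalPComplement_iff_pResidual] at h
  have hNn := hN.normal
  let S₀ : Set G := {x | x ∈ N ∧ (orderOf x).Coprime p}
  have hS₀ : ∀ x ∈ S₀, ∀ g : G, g * x * g⁻¹ ∈ S₀ := by
    rintro x ⟨hx1, hx2⟩ g
    refine ⟨hNn.conj_mem x hx1 g, ?_⟩
    rw [orderOf_conj_eq]
    exact hx2
  have hCn : (Subgroup.closure S₀).Normal := closure_normal_of_conj_invariant hS₀
  have hR : (Cfsg.pResidual p N).map N.subtype = Subgroup.closure S₀ := by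
    rw [Cfsg.pResidual, MonoidHom.map_closure]
    congr 1
    ext y
    constructor
    · rintro ⟨a, ha, rfl⟩
      refine ⟨a.2, ?_⟩
      show (orderOf (a : G)).Coprime p
      rw [Subgroup.orderOf_coe]
      exact ha
    · rintro ⟨hy1, hy2⟩
      refine ⟨⟨y, hy1⟩, ?_, rfl⟩
      show (orderOf (⟨y, hy1⟩ : N)).Coprime p
      rw [← Subgroup.orderOf_coe]
      exact hy2
  have hCle : Subgroup.closure S₀ ≤ N := (Subgroup.closure_le _).mpr fun x hx => hx.1
  rcases hN.min _ hCn hCle with h1 | h1
  · apply hNp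
    have h2 : Cfsg.pResidual p N = ⊥ := by
      rw [h1] at hR
      exact (Subgroup.map_eq_bot_iff_of_injective _ N.subtype_injective).mp hR
    have h3 : IsPGroup p (N ⧸ Cfsg.pResidual p N) := isPGroup_quotient_pResidual
    refine h3.of_injective (QuotientGroup.mk' (Cfsg.pResidual p N)) ?_
    rw [injective_iff_map_eq_one]
    intro a ha
    have : a ∈ Cfsg.pResidual p N := (QuotientGroup.eq_one_iff a).mp ha
    rw [h2, Subgroup.mem_bot] at this
    exact this
  · have h2 : Cfsg.pResidual p N = ⊤ := by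
      rw [h1] at hR
      apply Subgroup.map_injective N.subtype_injective
      rw [hR, ← MonoidHom.range_eq_map, Subgroup.range_subtype]
    rw [h2] at h
    have h3 : (Nat.card N).Coprime p := by
      rwa [Nat.card_congr Subgroup.topEquiv.toEquiv] at h
    have h4 : N ≤ Cfsg.pPrimeCore p G := Cfsg.Agent.Lib.Basic.PCore.le_pPrimeCore hNn h3
    rw [hcore] at h4
    exact hN.ne_bot (le_bot_iff.mp h4)

/-- Non-`p`-group minimal normal subgroups are not abelian when `O_{p'}(G) = 1`. -/
theorem not_comm (hcore : Cfsg.pPrimeCore p G = ⊥) (N : Subgroup G) (hN : IsMinN N)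
    (hNp : ¬ IsPGroup p N) : ¬ ∀ a ∈ N, ∀ b ∈ N, a * b = b * a := by
  intro hab
  have hNn := hN.normal
  let U : Subgroup G :=
    { carrier := {x | x ∈ N ∧ ∃ k : ℕ, x ^ p ^ k = 1}
      mul_mem' := by
        rintro a b ⟨ha, k, hk⟩ ⟨hb, l, hl⟩
        refine ⟨N.mul_mem ha hb, k + l, ?_⟩
        have hc : Commute a b := hab a ha b hb
        rw [hc.mul_pow, pow_add, pow_mul, hk, one_pow, one_mul, mul_comm (p ^ k), pow_mul, hl, one_pow]
      one_mem' := ⟨N.one_mem, 0, by simp⟩
      inv_mem' := by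
        rintro a ⟨ha, k, hk⟩
        exact ⟨N.inv_mem ha, k, by rw [inv_pow, hk, inv_one]⟩ }
  have hUn : U.Normal := by
    constructor
    rintro a ⟨ha, k, hk⟩ g
    refine ⟨hNn.conj_mem a ha g, k, ?_⟩
    rw [conj_pow, hk]
    simp
  rcases hN.min U hUn (fun x hx => hx.1) with h1 | h1
  · have h2 : ¬ p ∣ Nat.card N := by
      intro hd
      obtain ⟨g, hg⟩ := exists_prime_orderOf_dvd_card' p hd
      have h3 : (g : G) ∈ U := ⟨g.2, 1, by
        have h4 := pow_orderOf_eq_one g
        rw [hg] at h4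
        simpa using congrArg Subtype.val h4⟩
      rw [h1, Subgroup.mem_bot] at h3
      have h4 : g = 1 := Subtype.ext h3
      rw [h4, orderOf_one] at hg
      exact hp.out.one_lt.ne hg
    have h3 : (Nat.card N).Coprime p := ((Nat.Prime.coprime_iff_not_dvd hp.out).mpr h2).symm
    have h4 : N ≤ Cfsg.pPrimeCore p G := Cfsg.Agent.Lib.Basic.PCore.le_pPrimeCore hNn h3
    rw [hcore] at h4
    exact hN.ne_bot (le_bot_iff.mp h4)
  · apply hNp
    intro x
    have h2 : (x : G) ∈ U := by rw [h1]; exact x.2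
    obtain ⟨k, hk⟩ := h2.2
    exact ⟨k, Subtype.ext (by simpa using hk)⟩

omit [Finite G] hp in
theorem center_eq_bot (N : Subgroup G) (hN : IsMinN N) (hnc : ¬ ∀ a ∈ N, ∀ b ∈ N, a * b = b * a) :
    N ⊓ Subgroup.centralizer (N : Set G) = ⊥ := by
  have hNn := hN.normal
  have hn : (N ⊓ Subgroup.centralizer (N : Set G)).Normal := inferInstance
  rcases hN.min _ hn inf_le_left with h | h
  · exact h
  · exfalso
    apply hnc
    intro a ha b hb
    have h1 : b ∈ N ⊓ Subgroup.centralizer (N : Set G) := by rw [h]; exact hb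
    exact Subgroup.mem_centralizer_iff.mp h1.2 a ha

/-- The reduction: either we are done, or there is a unique non-simple minimal normal subgroup with
trivial centralizer. -/
theorem reduce (P : Sylow p G) (hidx : (commutator (P : Subgroup G)).index = p ^ 2)
    (hcore : Cfsg.pPrimeCore p G = ⊥)
    (hcore' : (⁅(P : Subgroup G), (P : Subgroup G)⁆).normalCore = ⊥)
    (hnas : ¬ ∃ S : Subgroup G, S.Normal ∧ IsSimpleGroup S ∧ ¬ IsMulCommutative S ∧
      Subgroup.centralizer (S : Set G) = ⊥)
    (hne : Nontrivial G) :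
    (∃ x : G, Good p x) ∨ (∀ x y : (P : Subgroup G), x * y = y * x) ∨
      ∃ N : Subgroup G, IsMinN N ∧ ¬ IsPGroup p N ∧ Subgroup.centralizer (N : Set G) = ⊥ ∧
        ¬ IsSimpleGroup N := by
  obtain ⟨N, -, hN⟩ := exists_isMinN_le (⊤ : Subgroup G) inferInstance top_ne_bot
  by_cases hNp : IsPGroup p N
  · rcases case_pgroup P hidx hcore' N hN hNp with h | h
    · exact Or.inl h
    · exact Or.inr (Or.inl h)
  have hNn := hN.normal
  have hnc := not_comm hcore N hN hNp
  by_cases hCN : Subgroup.centralizer (N : Set G) = ⊥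
  · refine Or.inr (Or.inr ⟨N, hN, hNp, hCN, fun hs => hnas ⟨N, hNn, hs, fun hc => hnc ?_, hCN⟩⟩)
    intro a ha b hb
    exact congrArg Subtype.val (hc.is_comm.comm ⟨a, ha⟩ ⟨b, hb⟩)
  · obtain ⟨N₂, hN₂le, hN₂⟩ := exists_isMinN_le (Subgroup.centralizer (N : Set G)) inferInstance hCN
    by_cases hN₂p : IsPGroup p N₂
    · rcases case_pgroup P hidx hcore' N₂ hN₂ hN₂p with h | h
      · exact Or.inl h
      · exact Or.inr (Or.inl h)
    · right; left
      have hN₂n := hN₂.normal
      have htop : ∀ (L : Subgroup G), L.Normal → (P : Subgroup G) ≤ Subgroup.normalizer (L : Set G) := by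
        intro L hL
        rw [Subgroup.normalizer_eq_top_iff.mpr hL]
        exact le_top
      refine comm_of_two P hidx N N₂ (htop _ hNn) (htop _ hN₂n) ?_
        (center_eq_bot N hN hnc) (center_eq_bot N₂ hN₂ (not_comm hcore N₂ hN₂ hN₂p))
        (not_hnpc hcore N hN hNp) (not_hnpc hcore N₂ hN₂ hN₂p)
      intro a ha b hb
      exact Subgroup.mem_centralizer_iff.mp (hN₂le hb) a ha

end Cfsg.Agent.Lib.PSq
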