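import Mathlib
import Cfsg.Agent.Lib.PSq.MinNormal
import Cfsg.Agent.Lib.Solvable.PSeries

set_option autoImplicit false

namespace Cfsg.Agent.Lib.PSq

open Subgroup
open Cfsg.Agent.Lib.PGroup.Basic
open Cfsg.Agent.Lib.Transfer.Basic

variable {G : Type*} [Group G]

/-- Conjugate of a subgroup. -/
def cj (h : G) (S : Subgroup G) : Subgroup G := S.map (MulAut.conj h).toMonoidHom

theorem mem_cj {h y : G} {S : Subgroup G} : y ∈ cj h S ↔ h⁻¹ * y * h ∈ S := by
  constructor
  · rintro ⟨s, hs, rfl⟩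
    have : h⁻¹ * ((MulAut.conj h).toMonoidHom s) * h = s := by
      simp [MulAut.conj_apply]
      group
    rw [this]
    exact hs
  · intro hy
    refine ⟨_, hy, ?_⟩
    simp [MulAut.conj_apply]
    group

theorem conj_mem_cj {h s : G} {S : Subgroup G} (hs : s ∈ S) : h * s * h⁻¹ ∈ cj h S :=
  ⟨s, hs, rfl⟩

@[simp] theorem cj_one (S : Subgroup G) : cj 1 S = S := by
  ext y
  simp [mem_cj]

theorem cj_mul (h k : G) (S : Subgroup G) : cj (h * k) S = cj h (cj k S) := by
  ext y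
  simp only [mem_cj]
  have : k⁻¹ * (h⁻¹ * y * h) * k = (h * k)⁻¹ * y * (h * k) := by group
  rw [this]

theorem cj_eq_self_iff {h : G} {S : Subgroup G} :
    cj h S = S ↔ h ∈ Subgroup.normalizer (S : Set G) := by
  rw [Subgroup.mem_normalizer_iff]
  constructor
  · intro hc y
    constructor
    · intro hy
      rw [← hc]
      exact conj_mem_cj hy
    · intro hy
      have h1 : h * y * h⁻¹ ∈ cj h S := by rw [hc]; exact hy
      have h2 := mem_cj.mp h1
      have h3 : h⁻¹ * (h * y * h⁻¹) * h = y := by group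
      rwa [h3] at h2
  · intro hn
    ext y
    rw [mem_cj]
    constructor
    · intro hy
      have h1 := (hn _).mp hy
      have h3 : h * (h⁻¹ * y * h) * h⁻¹ = y := by group
      rwa [h3] at h1
    · intro hy
      apply (hn _).mpr
      have h3 : h * (h⁻¹ * y * h) * h⁻¹ = y := by group
      rwa [h3]

theorem cj_cj_inv (h : G) (S : Subgroup G) : cj h (cj h⁻¹ S) = S := by
  rw [← cj_mul, mul_inv_cancel, cj_one]

/-- Minimal members of the normal subgroups of `N`. -/
structure Mn (N S : Subgroup G) : Prop where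
  ne_bot : S ≠ ⊥
  le : S ≤ N
  nor : N ≤ Subgroup.normalizer (S : Set G)
  min : ∀ K : Subgroup G, K ≤ S → K ≠ ⊥ → N ≤ Subgroup.normalizer (K : Set G) → K = S

theorem Mn.cjg {N S : Subgroup G} [hN : N.Normal] (hS : Mn N S) (h : G) : Mn N (cj h S) := by
  refine ⟨?_, ?_, ?_, ?_⟩
  · intro h1
    apply hS.ne_bot
    rw [eq_bot_iff]
    intro s hs
    have h2 := conj_mem_cj (h := h) hs
    rw [h1, Subgroup.mem_bot] at h2
    have h3 : s = h⁻¹ * (h * s * h⁻¹) * h := by group
    rw [h3, h2]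
    simp
  · intro y hy
    have h1 := hS.le (mem_cj.mp hy)
    have h2 := hN.conj_mem _ h1 h
    have h3 : h * (h⁻¹ * y * h) * h⁻¹ = y := by group
    rwa [h3] at h2
  · intro n hn
    rw [Subgroup.mem_normalizer_iff]
    have hn' : h⁻¹ * n * h ∈ N := by
      have := hN.conj_mem n hn h⁻¹
      simpa using this
    have h1 := Subgroup.mem_normalizer_iff.mp (hS.nor hn')
    intro y
    rw [mem_cj, mem_cj, h1]
    have : h⁻¹ * n * h * (h⁻¹ * y * h) * (h⁻¹ * n * h)⁻¹ = h⁻¹ * (n * y * n⁻¹) * h := by group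
    rw [this]
  · intro K hK hKne hKn
    have h1 : Cfsg.Agent.Lib.PSq.cj h⁻¹ K ≤ S := by
      intro y hy
      have h2 := mem_cj.mp hy
      have h3 := hK h2
      have h4 := mem_cj.mp h3
      have h5 : h⁻¹ * ((h⁻¹)⁻¹ * y * h⁻¹) * h = y := by group
      rwa [h5] at h4
    have h2 : Cfsg.Agent.Lib.PSq.cj h⁻¹ K ≠ ⊥ := by
      intro h3
      apply hKne
      rw [eq_bot_iff]
      intro s hs
      have h4 := conj_mem_cj (h := h⁻¹) hs
      rw [h3, Subgroup.mem_bot] at h4
      have h5 : s = h * (h⁻¹ * s * h⁻¹⁻¹) * h⁻¹ := by group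
      rw [h5, h4]
      simp
    have h3 : N ≤ Subgroup.normalizer (Cfsg.Agent.Lib.PSq.cj h⁻¹ K : Set G) := by
      intro n hn
      rw [Subgroup.mem_normalizer_iff]
      have hn' : h * n * h⁻¹ ∈ N := hN.conj_mem n hn h
      have h1 := Subgroup.mem_normalizer_iff.mp (hKn hn')
      intro y
      rw [mem_cj, mem_cj, h1]
      have : h * n * h⁻¹ * (h⁻¹⁻¹ * y * h⁻¹) * (h * n * h⁻¹)⁻¹ = h⁻¹⁻¹ * (n * y * n⁻¹) * h⁻¹ := by
        group
      rw [this]
    have h4 := hS.min _ h1 h2 h3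
    rw [← h4, cj_cj_inv]

/-- Distinct members commute. -/
theorem Mn.commute {N S₁ S₂ : Subgroup G} (h₁ : Mn N S₁) (h₂ : Mn N S₂) (hne : S₁ ≠ S₂)
    {a b : G} (ha : a ∈ S₁) (hb : b ∈ S₂) : a * b = b * a := by
  have hinf : S₁ ⊓ S₂ = ⊥ := by
    by_contra hcon
    have hn : N ≤ Subgroup.normalizer ((S₁ ⊓ S₂ : Subgroup G) : Set G) := by
      intro n hn
      rw [Subgroup.mem_normalizer_iff]
      intro y
      have e1 := Subgroup.mem_normalizer_iff.mp (h₁.nor hn) y
      have e2 := Subgroup.mem_normalizer_iff.mp (h₂.nor hn) y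
      simp only [Subgroup.mem_inf]
      rw [e1, e2]
    have e1 := h₁.min _ inf_le_left hcon hn
    have e2 := h₂.min _ inf_le_right hcon hn
    exact hne (e1.symm.trans e2)
  have h1 : a * b * a⁻¹ * b⁻¹ ∈ S₁ ⊓ S₂ := by
    constructor
    · have : b * a⁻¹ * b⁻¹ ∈ S₁ :=
        (Subgroup.mem_normalizer_iff.mp (h₁.nor (h₂.le hb)) _).mp (S₁.inv_mem ha)
      have h3 : a * b * a⁻¹ * b⁻¹ = a * (b * a⁻¹ * b⁻¹) := by group
      rw [h3]
      exact S₁.mul_mem ha this
    · have : a * b * a⁻¹ ∈ S₂ := (Subgroup.mem_normalizer_iff.mp (h₂.nor (h₁.le ha)) _).mp hb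
      exact S₂.mul_mem this (S₂.inv_mem hb)
  rw [hinf, Subgroup.mem_bot] at h1
  calc a * b = (a * b * a⁻¹ * b⁻¹) * (b * a) := by group
    _ = b * a := by rw [h1, one_mul]

/-- Distinct members are in each other's centralizers. -/
theorem Mn.le_centralizer {N S₁ S₂ : Subgroup G} (h₁ : Mn N S₁) (h₂ : Mn N S₂) (hne : S₁ ≠ S₂) :
    S₁ ≤ Subgroup.centralizer (S₂ : Set G) := by
  intro a ha
  rw [Subgroup.mem_centralizer_iff]
  intro b hb
  exact (h₁.commute h₂ hne ha hb).symm

theorem normalClosure_eq {N S : Subgroup G} [hN : N.Normal] (hNm : IsMinN N) (hS : Mn N S) :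
    Subgroup.normalClosure (S : Set G) = N := by
  have hle : Subgroup.normalClosure (S : Set G) ≤ N :=
    Subgroup.normalClosure_le_normal hS.le
  rcases hNm.min _ inferInstance hle with h | h
  · exfalso
    apply hS.ne_bot
    rw [eq_bot_iff]
    intro s hs
    have := Subgroup.subset_normalClosure hs
    rw [h] at this
    exact this
  · exact h

end Cfsg.Agent.Lib.PSq
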