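import Mathlib
import Cfsg.Agent.Lib.PSq.Conj

set_option autoImplicit false

namespace Cfsg.Agent.Lib.PSq

open Subgroup
open Cfsg.Agent.Lib.PGroup.Basic
open Cfsg.Agent.Lib.Transfer.Basic

variable {G : Type*} [Group G] [Finite G] {p : ℕ} [hp : Fact p.Prime]

omit hp in
theorem exists_Mn (N : Subgroup G) (hN : IsMinN N) (hns : ¬ IsSimpleGroup N) :
    ∃ S : Subgroup G, Mn N S ∧ S ≠ N := by
  have hnt : Nontrivial N := by
    rw [Subgroup.nontrivial_iff_ne_bot]
    exact hN.ne_bot
  obtain ⟨K₀, hK₀n, hK₀b, hK₀t⟩ : ∃ K₀ : Subgroup N, K₀.Normal ∧ K₀ ≠ ⊥ ∧ K₀ ≠ ⊤ := by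
    by_contra hcon
    push_neg at hcon
    apply hns
    refine ⟨fun H hH => ?_⟩
    by_cases h : H = ⊥
    · exact Or.inl h
    · exact Or.inr (hcon H hH h)
  let K : Subgroup G := K₀.map N.subtype
  have hKle : K ≤ N := by
    rintro _ ⟨a, -, rfl⟩
    exact a.2
  have hKb : K ≠ ⊥ := by
    intro h
    exact hK₀b ((Subgroup.map_eq_bot_iff_of_injective _ N.subtype_injective).mp h)
  have hKn : N ≤ Subgroup.normalizer (K : Set G) := by
    intro n hn
    rw [Subgroup.mem_normalizer_iff]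
    intro y
    constructor
    · rintro ⟨a, ha, rfl⟩
      exact ⟨⟨n, hn⟩ * a * ⟨n, hn⟩⁻¹, hK₀n.conj_mem a ha _, rfl⟩
    · rintro ⟨a, ha, hay⟩
      have h1 : y = (⟨n, hn⟩⁻¹ * a * ⟨n, hn⟩ : N) := by
        simp only [Subgroup.subtype_apply] at hay
        simp only [Subgroup.coe_mul, Subgroup.coe_inv]
        rw [hay]
        group
      rw [h1]
      refine ⟨(⟨n, hn⟩⁻¹ * a * ⟨n, hn⟩ : N), ?_, rfl⟩
      have := hK₀n.conj_mem a ha ⟨n, hn⟩⁻¹
      simpa using this
  have hwf : WellFounded ((· < ·) : Subgroup G → Subgroup G → Prop) := wellFounded_lt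
  obtain ⟨S, hS, hmin⟩ := hwf.has_min {K' : Subgroup G | K' ≠ ⊥ ∧ K' ≤ K ∧ N ≤ Subgroup.normalizer (K' : Set G)}
    ⟨K, hKb, le_rfl, hKn⟩
  refine ⟨S, ⟨hS.1, hS.2.1.trans hKle, hS.2.2, fun K' h1 h2 h3 => ?_⟩, ?_⟩
  · by_contra hne
    exact hmin K' ⟨h2, h1.trans hS.2.1, h3⟩ (lt_of_le_of_ne h1 hne)
  · intro h
    apply hK₀t
    rw [eq_top_iff]
    intro a _
    have h1 : (a : G) ∈ K := hS.2.1 (h ▸ a.2)
    obtain ⟨b, hb, hba⟩ := h1
    have : b = a := Subtype.ext hba
    rw [← this]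
    exact hb

omit [Finite G] hp in
/-- Conjugates of elements of `S` lie in the conjugates of `S`. -/
theorem exists_cj_of_mem_conjugates {S : Subgroup G} {c : G}
    (hc : c ∈ Group.conjugatesOfSet (S : Set G)) : ∃ g : G, c ∈ cj g S := by
  rw [Group.mem_conjugatesOfSet_iff] at hc
  obtain ⟨s, hs, hsc⟩ := hc
  obtain ⟨g, rfl⟩ := isConj_iff.mp hsc
  exact ⟨g, conj_mem_cj hs⟩

/-- What commutes with all conjugates of `S` centralizes `N`. -/
theorem mem_centralizer_of_forall {N S : Subgroup G} (hNm : IsMinN N) (hS : Mn N S) {y : G}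
    (h : ∀ g : G, ∀ c ∈ cj g S, c * y = y * c) : y ∈ Subgroup.centralizer (N : Set G) := by
  have := hNm.normal
  have h1 := normalClosure_eq hNm hS
  have h2 : N ≤ Subgroup.centralizer ({y} : Set G) := by
    rw [← h1, Subgroup.normalClosure, Subgroup.closure_le]
    intro c hc
    obtain ⟨g, hg⟩ := exists_cj_of_mem_conjugates hc
    exact Subgroup.mem_centralizer_singleton_iff.mpr (h g c hg)
  rw [Subgroup.mem_centralizer_iff]
  intro n hn
  exact Subgroup.mem_centralizer_singleton_iff.mp (h2 hn)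

/-- `S` has trivial centre. -/
theorem Mn.inf_centralizer {N S : Subgroup G} (hNm : IsMinN N) (hS : Mn N S)
    (hnc : ¬ ∀ a ∈ N, ∀ b ∈ N, a * b = b * a) : S ⊓ Subgroup.centralizer (S : Set G) = ⊥ := by
  have hNn := hNm.normal
  by_contra hcon
  have hn : N ≤ Subgroup.normalizer ((S ⊓ Subgroup.centralizer (S : Set G) : Subgroup G) : Set G) := by
    intro n hn
    rw [Subgroup.mem_normalizer_iff]
    intro y
    have e1 := Subgroup.mem_normalizer_iff.mp (hS.nor hn)
    have key : ∀ (n : G), n ∈ N → ∀ y, y ∈ Subgroup.centralizer (S : Set G) →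
        n * y * n⁻¹ ∈ Subgroup.centralizer (S : Set G) := by
      intro n hn y hy
      rw [Subgroup.mem_centralizer_iff] at hy ⊢
      intro s hs
      have e2 := Subgroup.mem_normalizer_iff.mp (hS.nor (N.inv_mem hn))
      have h1 : n⁻¹ * s * n⁻¹⁻¹ ∈ S := (e2 s).mp hs
      have h2 := hy _ h1
      simp only [inv_inv] at h2
      calc s * (n * y * n⁻¹) = n * ((n⁻¹ * s * n) * y) * n⁻¹ := by group
        _ = n * (y * (n⁻¹ * s * n)) * n⁻¹ := by rw [h2]
        _ = n * y * n⁻¹ * s := by group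
    simp only [Subgroup.mem_inf]
    rw [e1 y]
    constructor
    · rintro ⟨h1, h2⟩
      exact ⟨h1, key n hn y h2⟩
    · rintro ⟨h1, h2⟩
      refine ⟨h1, ?_⟩
      have := key n⁻¹ (N.inv_mem hn) _ h2
      simpa [mul_assoc] using this
  have heq := hS.min _ inf_le_left hcon hn
  have hab : ∀ a ∈ S, ∀ b ∈ S, a * b = b * a := by
    intro a ha b hb
    have h1 : a ∈ S ⊓ Subgroup.centralizer (S : Set G) := by rw [heq]; exact ha
    exact (Subgroup.mem_centralizer_iff.mp h1.2 b hb).symm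
  have hcomm : ∀ x ∈ Group.conjugatesOfSet (S : Set G), ∀ y ∈ Group.conjugatesOfSet (S : Set G),
      x * y = y * x := by
    intro x hx y hy
    obtain ⟨g₁, hg₁⟩ := exists_cj_of_mem_conjugates hx
    obtain ⟨g₂, hg₂⟩ := exists_cj_of_mem_conjugates hy
    by_cases he : cj g₁ S = cj g₂ S
    · rw [← he] at hg₂
      have h1 := hab _ (mem_cj.mp hg₁) _ (mem_cj.mp hg₂)
      have h2 : g₁⁻¹ * x * g₁ * (g₁⁻¹ * y * g₁) = g₁⁻¹ * (x * y) * g₁ := by group
      have h3 : g₁⁻¹ * y * g₁ * (g₁⁻¹ * x * g₁) = g₁⁻¹ * (y * x) * g₁ := by group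
      rw [h2, h3] at h1
      have h4 := mul_right_cancel h1
      exact mul_left_cancel h4
    · exact (hS.cjg g₁).commute (hS.cjg g₂) he hg₁ hg₂
  have h5 := Subgroup.isMulCommutative_closure hcomm
  apply hnc
  intro a ha b hb
  have h6 := normalClosure_eq hNm hS
  rw [Subgroup.normalClosure] at h6
  have ha' : a ∈ Subgroup.closure (Group.conjugatesOfSet (S : Set G)) := by rw [h6]; exact ha
  have hb' : b ∈ Subgroup.closure (Group.conjugatesOfSet (S : Set G)) := by rw [h6]; exact hb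
  exact congrArg Subtype.val (h5.is_comm.comm ⟨a, ha'⟩ ⟨b, hb'⟩)

/-- A member with a normal `p`-complement is a `p`-group or a `p'`-group. -/
theorem Mn.isPGroup_or_coprime {N S : Subgroup G} (hS : Mn N S)
    (h : Cfsg.HasNormalPComplement p S) : IsPGroup p S ∨ (Nat.card S).Coprime p := by
  rw [hasNormalPComplement_iff_pResidual] at h
  let S₀ : Set G := {x | x ∈ S ∧ (orderOf x).Coprime p}
  have hR : (Cfsg.pResidual p S).map S.subtype = Subgroup.closure S₀ := by
    rw [Cfsg.pResidual, MonoidHom.map_closure]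
    congr 1
    ext y
    constructor
    · rintro ⟨a, ha, rfl⟩
      refine ⟨a.2, ?_⟩
      show (orderOf (a : G)).Coprime p
      rw [Subgroup.orderOf_coe]
      exact ha
    · rintro ⟨hy1, hy2⟩
      refine ⟨⟨y, hy1⟩, ?_, rfl⟩
      show (orderOf (⟨y, hy1⟩ : S)).Coprime p
      rw [← Subgroup.orderOf_coe]
      exact hy2
  have hCle : Subgroup.closure S₀ ≤ S := (Subgroup.closure_le _).mpr fun x hx => hx.1
  have hCn : N ≤ Subgroup.normalizer ((Subgroup.closure S₀ : Subgroup G) : Set G) := by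
    intro n hn
    have hconj : ∀ (n : G), n ∈ N → ∀ y, y ∈ Subgroup.closure S₀ → n * y * n⁻¹ ∈ Subgroup.closure S₀ := by
      intro n hn y hy
      have h1 : (Subgroup.closure S₀).map (MulAut.conj n).toMonoidHom ≤ Subgroup.closure S₀ := by
        rw [MonoidHom.map_closure, Subgroup.closure_le]
        rintro _ ⟨x, ⟨hx1, hx2⟩, rfl⟩
        apply Subgroup.subset_closure
        refine ⟨(Subgroup.mem_normalizer_iff.mp (hS.nor hn) x).mp hx1, ?_⟩
        show (orderOf (n * x * n⁻¹)).Coprime p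
        rw [orderOf_conj_eq]
        exact hx2
      exact h1 ⟨y, hy, rfl⟩
    rw [Subgroup.mem_normalizer_iff]
    intro y
    refine ⟨hconj n hn y, fun h => ?_⟩
    have := hconj n⁻¹ (N.inv_mem hn) _ h
    simpa [mul_assoc] using this
  by_cases hbot : Subgroup.closure S₀ = ⊥
  · left
    have h2 : Cfsg.pResidual p S = ⊥ := by
      rw [hbot] at hR
      exact (Subgroup.map_eq_bot_iff_of_injective _ S.subtype_injective).mp hR
    have h3 : IsPGroup p (S ⧸ Cfsg.pResidual p S) := isPGroup_quotient_pResidual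
    refine h3.of_injective (QuotientGroup.mk' (Cfsg.pResidual p S)) ?_
    rw [injective_iff_map_eq_one]
    intro a ha
    have : a ∈ Cfsg.pResidual p S := (QuotientGroup.eq_one_iff a).mp ha
    rw [h2, Subgroup.mem_bot] at this
    exact this
  · right
    have h1 := hS.min _ hCle hbot hCn
    have h2 : Cfsg.pResidual p S = ⊤ := by
      rw [h1] at hR
      apply Subgroup.map_injective S.subtype_injective
      rw [hR, ← MonoidHom.range_eq_map, Subgroup.range_subtype]
    rw [h2] at h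
    rwa [Nat.card_congr Subgroup.topEquiv.toEquiv] at h

/-- The members have no normal `p`-complement. -/
theorem Mn.not_hnpc {N S : Subgroup G} (hcore : Cfsg.pPrimeCore p G = ⊥) (hNm : IsMinN N)
    (hNp : ¬ IsPGroup p N) (hS : Mn N S) : ¬ Cfsg.HasNormalPComplement p S := by
  intro h
  have hNn := hNm.normal
  have hsub : ∀ g : G, cj g S ≤ N := fun g => (hS.cjg g).le
  have hnor : ∀ g : G, ((cj g S).subgroupOf N).Normal := fun g =>
    (Subgroup.normal_subgroupOf_iff_le_normalizer (hsub g)).mpr (hS.cjg g).nor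
  have hN1 := normalClosure_eq hNm hS
  have hcover : ∀ (Y : Subgroup N), (∀ g : G, (cj g S).subgroupOf N ≤ Y) → Y = ⊤ := by
    intro Y hY
    have h0 : Subgroup.normalClosure (S : Set G) ≤ Y.map N.subtype := by
      rw [Subgroup.normalClosure, Subgroup.closure_le]
      intro c hc
      obtain ⟨g, hg⟩ := exists_cj_of_mem_conjugates hc
      exact ⟨⟨c, hsub g hg⟩, hY g hg, rfl⟩
    have hle : N ≤ Y.map N.subtype := fun x hx => h0 (by rw [hN1]; exact hx)
    rw [eq_top_iff]
    intro a _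
    obtain ⟨b, hb, hba⟩ := hle a.2
    have : b = a := Subtype.ext hba
    rw [← this]
    exact hb
  -- transport along the conjugation
  have hcard : ∀ g : G, Nat.card ((cj g S).subgroupOf N) = Nat.card S := by
    intro g
    have h1 : Nat.card ((cj g S).subgroupOf N) = Nat.card (cj g S) :=
      Nat.card_congr (Subgroup.subgroupOfEquivOfLe (hsub g)).toEquiv
    rw [h1]
    exact Subgroup.card_map_of_injective (MulAut.conj g).injective
  rcases hS.isPGroup_or_coprime h with h1 | h1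
  · apply hNp
    have hY := hcover (Cfsg.pCore p N) (fun g => by
      have := hnor g
      refine Cfsg.Agent.Lib.Basic.PCore.le_pCore this ?_
      obtain ⟨k, hk⟩ := h1.exists_card_eq
      exact IsPGroup.of_card (n := k) (by rw [hcard g, hk]))
    have h2 := Cfsg.Agent.Lib.Basic.PCore.pCore_isPGroup (G := N) p
    rw [hY] at h2
    exact h2.of_equiv Subgroup.topEquiv
  · have hY := hcover (Cfsg.pPrimeCore p N) (fun g => by
      have := hnor g
      refine Cfsg.Agent.Lib.Basic.PCore.le_pPrimeCore this ?_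
      rw [hcard g]
      exact h1)
    have h2 := Cfsg.Agent.Lib.Solvable.PSeries.pPrimeCore_coprime (G := N) p
    rw [hY, Nat.card_congr Subgroup.topEquiv.toEquiv] at h2
    have h4 : N ≤ Cfsg.pPrimeCore p G := Cfsg.Agent.Lib.Basic.PCore.le_pPrimeCore hNn h2
    rw [hcore] at h4
    exact hNm.ne_bot (le_bot_iff.mp h4)

end Cfsg.Agent.Lib.PSq
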