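import Mathlib
import Cfsg.Agent.Lib.PSq.Struct

set_option autoImplicit false

namespace Cfsg.Agent.Lib.PSq

open Subgroup
open Cfsg.Agent.Lib.PGroup.Basic
open Cfsg.Agent.Lib.Transfer.Basic

variable {G : Type*} [Group G] [Finite G] {p : ℕ} [hp : Fact p.Prime]

/-- The join of the conjugates of `S` by a set of elements. -/
def LL (I : Set G) (S : Subgroup G) : Subgroup G := ⨆ i : I, cj (i : G) S

omit [Finite G] hp in
theorem cj_le_LL {I : Set G} {i : G} (hi : i ∈ I) (S : Subgroup G) : cj i S ≤ LL I S :=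
  le_iSup (fun i : I => cj (i : G) S) ⟨i, hi⟩

omit [Finite G] hp in
theorem conj_mem_LL {I : Set G} {S : Subgroup G} {q : G} (hq : ∀ i ∈ I, q * i ∈ I) {y : G}
    (hy : y ∈ LL I S) : q * y * q⁻¹ ∈ LL I S := by
  have h1 : (LL I S).map (MulAut.conj q).toMonoidHom ≤ LL I S := by
    rw [LL, Subgroup.map_iSup]
    refine iSup_le fun i => ?_
    have : (cj (i : G) S).map (MulAut.conj q).toMonoidHom = cj (q * i) S := by
      rw [cj_mul]
      rfl
    rw [this]
    exact cj_le_LL (hq _ i.2) S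
  exact h1 ⟨y, hy, rfl⟩

omit [Finite G] hp in
theorem mem_normalizer_LL {I : Set G} {S : Subgroup G} {q : G} (hq : ∀ i ∈ I, q * i ∈ I)
    (hq' : ∀ i ∈ I, q⁻¹ * i ∈ I) : q ∈ Subgroup.normalizer (LL I S : Set G) := by
  rw [Subgroup.mem_normalizer_iff]
  intro y
  refine ⟨conj_mem_LL hq, fun h => ?_⟩
  have := conj_mem_LL hq' h
  simpa [mul_assoc] using this

/-- The non-transitive case: `P` is commutative. -/
theorem comm_of_not_transitive (P : Sylow p G) (hidx : (commutator (P : Subgroup G)).index = p ^ 2)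
    (hcore : Cfsg.pPrimeCore p G = ⊥) {N S : Subgroup G} (hNm : IsMinN N) (hNp : ¬ IsPGroup p N)
    (hCN : Subgroup.centralizer (N : Set G) = ⊥) (hS : Mn N S) (h₀ : G)
    (hne : ∀ t ∈ (P : Subgroup G), cj h₀ S ≠ cj t S) (x y : (P : Subgroup G)) : x * y = y * x := by
  have hNn := hNm.normal
  let I₁ : Set G := ((P : Subgroup G) : Set G)
  let I₂ : Set G := {h | ∀ t ∈ (P : Subgroup G), cj h S ≠ cj t S}
  have hI₂ : h₀ ∈ I₂ := hne
  have hN₁ : (P : Subgroup G) ≤ Subgroup.normalizer (LL I₁ S : Set G) := by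
    intro q hq
    exact mem_normalizer_LL (fun i hi => (P : Subgroup G).mul_mem hq hi)
      (fun i hi => (P : Subgroup G).mul_mem ((P : Subgroup G).inv_mem hq) hi)
  have hkey : ∀ q ∈ (P : Subgroup G), ∀ i ∈ I₂, q * i ∈ I₂ := by
    intro q hq i hi t ht h1
    apply hi (q⁻¹ * t) ((P : Subgroup G).mul_mem ((P : Subgroup G).inv_mem hq) ht)
    rw [cj_mul q⁻¹ t, ← h1, cj_mul q i, ← cj_mul, inv_mul_cancel, cj_one]
  have hN₂ : (P : Subgroup G) ≤ Subgroup.normalizer (LL I₂ S : Set G) := by
    intro q hq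
    exact mem_normalizer_LL (hkey q hq) (hkey q⁻¹ ((P : Subgroup G).inv_mem hq))
  have hcomm : ∀ a ∈ LL I₁ S, ∀ b ∈ LL I₂ S, a * b = b * a := by
    have h1 : LL I₁ S ≤ Subgroup.centralizer (LL I₂ S : Set G) := by
      refine iSup_le fun t => ?_
      rw [Subgroup.le_centralizer_iff]
      refine iSup_le fun h => ?_
      exact (hS.cjg h).le_centralizer (hS.cjg t) (h.2 t t.2)
    intro a ha b hb
    exact (Subgroup.mem_centralizer_iff.mp (h1 ha) b hb).symm
  have hcases : ∀ g : G, cj g S ≤ LL I₁ S ∨ cj g S ≤ LL I₂ S := by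
    intro g
    by_cases hg : g ∈ I₂
    · exact Or.inr (cj_le_LL hg S)
    · left
      have hg' : ∃ t ∈ (P : Subgroup G), cj g S = cj t S := by
        by_contra hcon
        push_neg at hcon
        exact hg hcon
      obtain ⟨t, ht, hgt⟩ := hg'
      rw [hgt]
      exact cj_le_LL ht S
  have hZ₁ : LL I₁ S ⊓ Subgroup.centralizer (LL I₁ S : Set G) = ⊥ := by
    rw [eq_bot_iff]
    rintro y ⟨hy1, hy2⟩
    have h1 : y ∈ Subgroup.centralizer (N : Set G) := by
      refine mem_centralizer_of_forall hNm hS fun g c hc => ?_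
      rcases hcases g with h2 | h2
      · exact Subgroup.mem_centralizer_iff.mp hy2 c (h2 hc)
      · exact (hcomm y hy1 c (h2 hc)).symm
    rw [hCN] at h1
    exact h1
  have hZ₂ : LL I₂ S ⊓ Subgroup.centralizer (LL I₂ S : Set G) = ⊥ := by
    rw [eq_bot_iff]
    rintro y ⟨hy1, hy2⟩
    have h1 : y ∈ Subgroup.centralizer (N : Set G) := by
      refine mem_centralizer_of_forall hNm hS fun g c hc => ?_
      rcases hcases g with h2 | h2
      · exact hcomm c (h2 hc) y hy1
      · exact Subgroup.mem_centralizer_iff.mp hy2 c (h2 hc)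
    rw [hCN] at h1
    exact h1
  have hn₁ : ¬ Cfsg.HasNormalPComplement p (LL I₁ S) := by
    intro h
    have hle : S ≤ LL I₁ S := by
      have := cj_le_LL (I := I₁) ((P : Subgroup G).one_mem) S
      rwa [cj_one] at this
    exact hS.not_hnpc hcore hNm hNp
      (HasNormalPComplement_of_injective (Subgroup.inclusion hle)
        (Subgroup.inclusion_injective hle) h)
  have hn₂ : ¬ Cfsg.HasNormalPComplement p (LL I₂ S) := by
    intro h
    have hle := cj_le_LL hI₂ S
    exact (hS.cjg h₀).not_hnpc hcore hNm hNp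
      (HasNormalPComplement_of_injective (Subgroup.inclusion hle)
        (Subgroup.inclusion_injective hle) h)
  exact comm_of_two P hidx _ _ hN₁ hN₂ hcomm hZ₁ hZ₂ hn₁ hn₂ x y

/-- `P ⊓ N` contains the full `p`-part of `N`. -/
theorem factorization_card_inf (P : Sylow p G) (N : Subgroup G) [hN : N.Normal] :
    (Nat.card N).factorization p = (Nat.card ↥(N ⊓ (P : Subgroup G))).factorization p := by
  have h1 := Subgroup.card_mul_index N
  have h2 := Subgroup.card_mul_index (N.subgroupOf (P : Subgroup G))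
  rw [card_inf_eq] at h2
  have h3 := factorization_index_eq P N
  have h4 : Nat.card P = p ^ (Nat.card G).factorization p := P.card_eq_multiplicity
  have hp0 : p ≠ 0 := hp.out.ne_zero
  have h5 : (Nat.card (P : Subgroup G)).factorization p = (Nat.card G).factorization p := by
    have : Nat.card (P : Subgroup G) = Nat.card P := rfl
    rw [this, h4, hp.out.factorization_pow]
    simp
  have e1 : (Nat.card N).factorization p + N.index.factorization p =
      (Nat.card G).factorization p := by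
    rw [← h1, Nat.factorization_mul Nat.card_pos.ne' Subgroup.index_ne_zero_of_finite]
    rfl
  have e2 : (Nat.card ↥(N ⊓ (P : Subgroup G))).factorization p +
      (N.subgroupOf (P : Subgroup G)).index.factorization p = (Nat.card (P : Subgroup G)).factorization p := by
    rw [← h2, Nat.factorization_mul Nat.card_pos.ne' Subgroup.index_ne_zero_of_finite]
    rfl
  omega

/-- Sylow subgroups of internal direct products split. -/
theorem exists_mul_of_sylow {X : Type*} [Group X] [Finite X] (Q : Sylow p X) (S B : Subgroup X)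
    [hS : S.Normal] [hB : B.Normal] (hinf : S ⊓ B = ⊥) (hsup : S ⊔ B = ⊤) {a : X}
    (ha : a ∈ (Q : Subgroup X)) : ∃ a₁ a₂ : X, a₁ ∈ S ⊓ (Q : Subgroup X) ∧ a₂ ∈ B ⊓ (Q : Subgroup X) ∧
      a = a₁ * a₂ := by
  classical
  -- cardinalities
  have hindex : S.index = Nat.card B := by
    have h1 := Subgroup.relIndex_sup_right (H := B) (K := S)
    rw [sup_comm, hsup, Subgroup.relIndex_top_right] at h1
    rw [h1]
    have h2 : S.subgroupOf B = ⊥ := by
      rw [eq_bot_iff]
      intro y hy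
      have h3 : (y : X) ∈ S ⊓ B := ⟨hy, y.2⟩
      rw [hinf, Subgroup.mem_bot] at h3
      exact Subtype.ext h3
    show (S.subgroupOf B).index = _
    rw [h2, Subgroup.index_bot]
  have hXc : Nat.card X = Nat.card S * Nat.card B := by
    rw [← hindex]
    exact (Subgroup.card_mul_index S).symm
  have hpg : ∀ L : Subgroup X, Nat.card ↥(L ⊓ (Q : Subgroup X)) = p ^ (Nat.card ↥(L ⊓ (Q : Subgroup X))).factorization p := by
    intro L
    have h1 : IsPGroup p ↥(L ⊓ (Q : Subgroup X)) := Q.2.to_le inf_le_right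
    obtain ⟨k, hk⟩ := h1.exists_card_eq
    rw [hk, hp.out.factorization_pow]
    simp
  have hQc : Nat.card (Q : Subgroup X) = p ^ (Nat.card X).factorization p := Q.card_eq_multiplicity
  have hcount : Nat.card ↥(S ⊓ (Q : Subgroup X)) * Nat.card ↥(B ⊓ (Q : Subgroup X)) =
      Nat.card (Q : Subgroup X) := by
    rw [hpg S, hpg B, ← factorization_card_inf Q S, ← factorization_card_inf Q B, hQc, hXc,
      Nat.factorization_mul Nat.card_pos.ne' Nat.card_pos.ne', Finsupp.add_apply, pow_add]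
  let f : ↥(S ⊓ (Q : Subgroup X)) × ↥(B ⊓ (Q : Subgroup X)) → (Q : Subgroup X) := fun u =>
    ⟨(u.1 : X) * (u.2 : X), (Q : Subgroup X).mul_mem u.1.2.2 u.2.2.2⟩
  have hf : Function.Injective f := by
    rintro ⟨u₁, u₂⟩ ⟨v₁, v₂⟩ h
    have h1 : (u₁ : X) * u₂ = v₁ * v₂ := congrArg Subtype.val h
    have h2 : (v₁ : X)⁻¹ * u₁ = v₂ * (u₂ : X)⁻¹ := by
      rw [inv_mul_eq_iff_eq_mul, ← mul_assoc, ← h1]
      group
    have h3 : (v₁ : X)⁻¹ * u₁ ∈ S ⊓ B := by
      refine ⟨S.mul_mem (S.inv_mem v₁.2.1) u₁.2.1, ?_⟩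
      rw [h2]
      exact B.mul_mem v₂.2.1 (B.inv_mem u₂.2.1)
    rw [hinf, Subgroup.mem_bot] at h3
    have h4 : (u₁ : X) = v₁ := by
      have := mul_eq_one_iff_eq_inv.mp h3
      simpa using this.symm
    have h5 : (u₂ : X) = v₂ := by
      rw [h4] at h1
      exact mul_left_cancel h1
    exact Prod.ext (Subtype.ext h4) (Subtype.ext h5)
  have hs : Function.Surjective f := by
    have hle : Nat.card (Q : Subgroup X) ≤ Nat.card (↥(S ⊓ (Q : Subgroup X)) × ↥(B ⊓ (Q : Subgroup X))) := by
      rw [Nat.card_prod, hcount]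
    exact (Function.Injective.bijective_of_nat_card_le hf hle).2
  obtain ⟨⟨u₁, u₂⟩, hu⟩ := hs ⟨a, ha⟩
  exact ⟨u₁, u₂, u₁.2, u₂.2, (congrArg Subtype.val hu).symm⟩

/-- The transfer on a normal subgroup. -/
theorem transfer_apply_of_normal {U A : Type*} [Group U] [Finite U] [CommGroup A] {H : Subgroup U}
    [hH : H.Normal] (ϕ : H →* A) [Fintype (U ⧸ H)] (x : U) (hx : x ∈ H) :
    ϕ.transfer x = ∏ q : U ⧸ H, ϕ ⟨(q.out)⁻¹ * x * q.out, by
      have := hH.conj_mem x hx (q.out)⁻¹
      simpa using this⟩ := by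
  classical
  let R : U ⧸ H → U := Quotient.out
  have hR : ∀ q, ((R q : U) : U ⧸ H) = q := fun q => q.out_eq'
  let T : H.LeftTransversal := ⟨Set.range R, Subgroup.isComplement_range_left hR⟩
  have hT : ∀ q, ((T.2.leftQuotientEquiv q : T.1) : U) = R q := fun q =>
    Subgroup.IsComplement.leftQuotientEquiv_apply hR q
  rw [MonoidHom.transfer_def ϕ T x]
  unfold Subgroup.leftTransversals.diff
  simp only
  have hs : ∀ q, (((x • T).2.leftQuotientEquiv q : (x • T).1) : U) = x * R (x⁻¹ • q) := by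
    intro q
    rw [Subgroup.smul_apply_eq_smul_apply_inv_smul, hT]
    rfl
  have hfix : ∀ q : U ⧸ H, x⁻¹ • q = q := by
    intro q
    induction q using QuotientGroup.induction_on with
    | H g =>
      rw [MulAction.Quotient.smul_coe, QuotientGroup.eq]
      have := hH.conj_mem x⁻¹⁻¹ (H.inv_mem (H.inv_mem hx)) g⁻¹
      simpa [mul_assoc] using H.mul_mem this (H.one_mem)
  have e : H.fintypeQuotientOfFiniteIndex = ‹Fintype (U ⧸ H)› := Subsingleton.elim _ _
  rw [e]
  refine Finset.prod_congr rfl fun q _ => ?_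
  congr 1
  apply Subtype.ext
  simp only
  rw [hs, hT, hfix]
  show (Quotient.out q)⁻¹ * (x * Quotient.out q) = _
  group

end Cfsg.Agent.Lib.PSq
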