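import Mathlib
import Cfsg.Agent.Lib.PSq.Split

set_option autoImplicit false

namespace Cfsg.Agent.Lib.PSq

open Subgroup
open Cfsg.Agent.Lib.PGroup.Basic
open Cfsg.Agent.Lib.Transfer.Basic

variable {G : Type*} [Group G] [Finite G] {p : ℕ} [hp : Fact p.Prime]

/-- The transitive case: the first half, everything up to the index computations. -/
theorem trans_setup (P : Sylow p G) (hidx : (commutator (P : Subgroup G)).index = p ^ 2)
    (hcore : Cfsg.pPrimeCore p G = ⊥) {N S : Subgroup G} (hNm : IsMinN N) (hNp : ¬ IsPGroup p N)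
    (hnc : ¬ ∀ a ∈ N, ∀ b ∈ N, a * b = b * a) (hS : Mn N S) (hSN : S ≠ N)
    (htr : ∀ h : G, ∃ t ∈ (P : Subgroup G), cj h S = cj t S) :
    ∃ g : (P : Subgroup G), (g : G) ∉ N ∧ (N.subgroupOf (P : Subgroup G)).index = p ∧
      (commutator (P : Subgroup G)).relIndex (N.subgroupOf (P : Subgroup G)) = p ∧
      commutator (P : Subgroup G) ≤ N.subgroupOf (P : Subgroup G) ∧
      N.subgroupOf (P : Subgroup G) ⊔ zpowers g = ⊤ ∧
      (Subgroup.normalizer (S : Set G)).subgroupOf (P : Subgroup G) = N.subgroupOf (P : Subgroup G) := by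
  have hNn := hNm.normal
  have hT : IsPGroup p (P : Subgroup G) := P.2
  let A : Subgroup (P : Subgroup G) := N.subgroupOf (P : Subgroup G)
  have hAn : A.Normal := inferInstance
  have hZN := center_eq_bot N hNm hnc
  have htopN : (P : Subgroup G) ≤ Subgroup.normalizer (N : Set G) := by
    rw [Subgroup.normalizer_eq_top_iff.mpr hNn]
    exact le_top
  obtain ⟨M, hM, -, hMA⟩ := exists_of_not_hasNormalPComplement P N htopN hZN (not_hnpc hcore N hNm hNp)
  obtain ⟨M₂, hM₂, hle₂⟩ := exists_isCoatom_ge hM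
  obtain ⟨d, hd, hd'⟩ : ∃ d, d ∈ A ∧ d ∉ M₂ := by
    by_contra hcon
    push_neg at hcon
    have : M ⊔ A ≤ M₂ := sup_le hle₂ hcon
    rw [hMA] at this
    exact hM₂.1 (top_le_iff.mp this)
  let St : Subgroup (P : Subgroup G) := (Subgroup.normalizer (S : Set G)).subgroupOf (P : Subgroup G)
  have hASt : A ≤ St := fun a ha => hS.nor ha
  have hStne : St ≠ ⊤ := by
    intro hSt
    apply hSN
    have hall : ∀ h : G, cj h S = S := by
      intro h
      obtain ⟨t, ht, hht⟩ := htr h
      rw [hht, cj_eq_self_iff]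
      have : (⟨t, ht⟩ : (P : Subgroup G)) ∈ St := by rw [hSt]; trivial
      exact this
    have hn : S.Normal := by
      constructor
      intro s hs g
      have := conj_mem_cj (h := g) hs
      rwa [hall g] at this
    rcases hNm.min S hn hS.le with h1 | h1
    · exact absurd h1 hS.ne_bot
    · exact h1
  obtain ⟨M₁, hM₁, hle₁⟩ := exists_isCoatom_ge hStne
  have hd₁ : d ∈ M₁ := hle₁ (hASt hd)
  obtain ⟨g, hg₂, hg₁⟩ : ∃ g, g ∈ M₂ ∧ g ∉ M₁ := by
    by_contra hcon
    push_neg at hcon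
    have h1 : M₂ ≤ M₁ := hcon
    have h2 : M₂ = M₁ := by
      by_contra hne
      exact hM₁.1 (hM₂.2 _ (lt_of_le_of_ne h1 hne))
    exact hd' (h2 ▸ hd₁)
  have hclo := closure_eq_top_of_separating hT hidx hM₁ hM₂ hg₁ hd' hd₁
  have hsup : A ⊔ zpowers g = ⊤ := by
    rw [eq_top_iff, ← hclo, Subgroup.closure_le]
    intro x hx
    simp only [Set.mem_insert_iff, Set.mem_singleton_iff] at hx
    rcases hx with rfl | rfl
    · exact Subgroup.mem_sup_right (mem_zpowers _)
    · exact Subgroup.mem_sup_left hd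
  have hcA : commutator (P : Subgroup G) ≤ A := by
    refine commutator_le_of_sup_zpowers A A g hsup ?_ ?_
    · intro a ha b hb
      exact A.mul_mem (A.mul_mem (A.mul_mem ha hb) (A.inv_mem ha)) (A.inv_mem hb)
    · intro a ha
      have : a * g * a⁻¹ * g⁻¹ = a * (g * a⁻¹ * g⁻¹) := by group
      rw [this]
      exact A.mul_mem ha (hAn.conj_mem _ (A.inv_mem ha) g)
  have hmul := Subgroup.relIndex_mul_index hcA
  rw [hidx] at hmul
  have hA1 : A.index ≠ 1 := by
    intro h
    rw [Subgroup.index_eq_one] at h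
    have : g ∈ A := by rw [h]; trivial
    exact hg₁ (hle₁ (hASt this))
  have hA2 : (commutator (P : Subgroup G)).relIndex A ≠ 1 := by
    intro h
    rw [Subgroup.relIndex_eq_one] at h
    exact hd' (commutator_le_of_isCoatom hT hM₂ (h hd))
  have hdvd : A.index ∣ p ^ 2 := ⟨_, by rw [← hmul, mul_comm]⟩
  obtain ⟨i, hi, hi2⟩ := (Nat.dvd_prime_pow hp.out).mp hdvd
  have hdvd2 : (commutator (P : Subgroup G)).relIndex A ∣ p ^ 2 := ⟨_, by rw [← hmul]⟩
  obtain ⟨j, hj, hj2⟩ := (Nat.dvd_prime_pow hp.out).mp hdvd2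
  rw [hi2, hj2, ← pow_add] at hmul
  have hij := Nat.pow_right_injective hp.out.two_le hmul
  have hi0 : i ≠ 0 := by
    rintro rfl
    exact hA1 (by rw [hi2, pow_zero])
  have hj0 : j ≠ 0 := by
    rintro rfl
    exact hA2 (by rw [hj2, pow_zero])
  have hi1 : i = 1 := by omega
  have hj1 : j = 1 := by omega
  rw [hi1, pow_one] at hi2
  rw [hj1, pow_one] at hj2
  have hco : IsCoatom A := isCoatom_of_index_prime (by rw [hi2]; exact hp.out)
  have hStA : St = A := by
    by_contra hne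
    exact hStne (hco.2 _ (lt_of_le_of_ne hASt (Ne.symm hne)))
  refine ⟨g, ?_, hi2, hj2, hcA, hsup, hStA⟩
  intro hgN
  exact hg₁ (hle₁ (hASt hgN))

omit [Finite G] hp in
theorem conj_mem_centralizer {S : Subgroup G} {n y : G} (hn : n ∈ Subgroup.normalizer (S : Set G))
    (hy : y ∈ Subgroup.centralizer (S : Set G)) : n * y * n⁻¹ ∈ Subgroup.centralizer (S : Set G) := by
  rw [Subgroup.mem_centralizer_iff] at hy ⊢
  intro s hs
  have h1 : n⁻¹ * s * n ∈ S := by
    have := (Subgroup.mem_normalizer_iff.mp (Subgroup.inv_mem _ hn) s).mp hs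
    simpa using this
  have h2 := hy _ h1
  calc s * (n * y * n⁻¹) = n * ((n⁻¹ * s * n) * y) * n⁻¹ := by group
    _ = n * (y * (n⁻¹ * s * n)) * n⁻¹ := by rw [h2]
    _ = n * y * n⁻¹ * s := by group

omit hp in
/-- `N` is covered by the conjugates of `S`. -/
theorem cover_top {N S : Subgroup G} (hNm : IsMinN N) (hS : Mn N S) (Y : Subgroup N)
    (hY : ∀ g : G, (cj g S).subgroupOf N ≤ Y) : Y = ⊤ := by
  have hNn := hNm.normal
  have hN1 := normalClosure_eq hNm hS
  have hsub : ∀ g : G, cj g S ≤ N := fun g => (hS.cjg g).le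
  have h0 : Subgroup.normalClosure (S : Set G) ≤ Y.map N.subtype := by
    rw [Subgroup.normalClosure, Subgroup.closure_le]
    intro c hc
    obtain ⟨g, hg⟩ := exists_cj_of_mem_conjugates hc
    exact ⟨⟨c, hsub g hg⟩, hY g hg, rfl⟩
  have hle : N ≤ Y.map N.subtype := fun x hx => h0 (by rw [hN1]; exact hx)
  rw [eq_top_iff]
  intro a _
  obtain ⟨b, hb, hba⟩ := hle a.2
  have : b = a := Subtype.ext hba
  rw [← this]
  exact hb

end Cfsg.Agent.Lib.PSq
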