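import Mathlib
import Cfsg.Agent.Lib.PSq.Trans

set_option autoImplicit false

namespace Cfsg.Agent.Lib.PSq

open Subgroup
open Cfsg.Agent.Lib.PGroup.Basic
open Cfsg.Agent.Lib.Transfer.Basic

variable {G : Type*} [Group G] [Finite G] {p : ℕ} [hp : Fact p.Prime]

/-- The Sylow subgroup of a normal subgroup cut out by `P`. -/
theorem exists_sylow_normal (P : Sylow p G) (N : Subgroup G) [hN : N.Normal] :
    ∃ Q : Sylow p N, ∀ x : N, x ∈ (Q : Subgroup N) ↔ (x : G) ∈ (P : Subgroup G) := by
  let Q₀ : Subgroup N := (P : Subgroup G).subgroupOf N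
  have h1 : IsPGroup p Q₀ := P.2.comap_subtype
  have h2 : ¬ p ∣ Q₀.index := by
    intro hd
    have h3 := Subgroup.card_mul_index Q₀
    have h4 : Nat.card Q₀ = Nat.card ↥(N ⊓ (P : Subgroup G)) := by
      rw [card_inf_eq, inf_comm]
    have h5 := factorization_card_inf P N
    rw [← h4] at h5
    rw [← h3, Nat.factorization_mul Nat.card_pos.ne' Subgroup.index_ne_zero_of_finite,
      Finsupp.add_apply] at h5
    have h6 : Q₀.index.factorization p = 0 := by omega
    have h7 : 1 ≤ Q₀.index.factorization p :=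
      (hp.out.dvd_iff_one_le_factorization Subgroup.index_ne_zero_of_finite).mp hd
    omega
  refine ⟨h1.toSylow h2, fun x => ?_⟩
  rw [IsPGroup.toSylow_coe]
  rfl

/-- Let `J` be the inclusion. The centralizer of `S` has index dividing `p` in `P ⊓ N`. -/
theorem index_dvd_prime (P : Sylow p G) {N S : Subgroup G} (hNm : IsMinN N)
    (hnc : ¬ ∀ a ∈ N, ∀ b ∈ N, a * b = b * a) (hS : Mn N S)
    (hrel : (commutator (P : Subgroup G)).relIndex (N.subgroupOf (P : Subgroup G)) = p)
    (hcA : commutator (P : Subgroup G) ≤ N.subgroupOf (P : Subgroup G))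
    (hSt : (Subgroup.normalizer (S : Set G)).subgroupOf (P : Subgroup G) = N.subgroupOf (P : Subgroup G)) :
    ((Subgroup.centralizer (S : Set G)).comap
      ((P : Subgroup G).subtype.comp (N.subgroupOf (P : Subgroup G)).subtype)).index ∣ p := by
  classical
  have hNn := hNm.normal
  have hT : IsPGroup p (P : Subgroup G) := P.2
  let A : Subgroup (P : Subgroup G) := N.subgroupOf (P : Subgroup G)
  have hAn : A.Normal := inferInstance
  let J : A →* G := (P : Subgroup G).subtype.comp A.subtype
  have hJN : ∀ a : A, J a ∈ N := fun a => a.2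
  have hJP : ∀ a : A, J a ∈ (P : Subgroup G) := fun a => (a : (P : Subgroup G)).2
  let K : Subgroup A := (Subgroup.centralizer (S : Set G)).comap J
  have hK : K.Normal := by
    constructor
    intro k hk a
    show J (a * k * a⁻¹) ∈ Subgroup.centralizer (S : Set G)
    rw [map_mul, map_mul, map_inv]
    exact conj_mem_centralizer (hS.nor (hJN a)) hk
  let φ : A →* Abelianization (A ⧸ K) := Abelianization.of.comp (QuotientGroup.mk' K)
  have hφK : ∀ a ∈ K, φ a = 1 := by
    intro a ha
    show Abelianization.of ((a : A) : A ⧸ K) = 1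
    rw [(QuotientGroup.eq_one_iff a).mpr ha, map_one]
  letI : Fintype ((P : Subgroup G) ⧸ A) := Fintype.ofFinite _
  -- the transfer on elements of `S`
  have htr : ∀ a : A, J a ∈ S → φ.transfer (a : (P : Subgroup G)) = φ a := by
    intro a ha
    rw [transfer_apply_of_normal φ (a : (P : Subgroup G)) a.2]
    rw [Finset.prod_eq_single (1 : (P : Subgroup G) ⧸ A)]
    · -- the trivial coset
      have h1 : (Quotient.out (1 : (P : Subgroup G) ⧸ A)) ∈ A := by
        have h2 : (((Quotient.out (1 : (P : Subgroup G) ⧸ A)) : (P : Subgroup G)) : (P : Subgroup G) ⧸ A) = 1 :=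
          Quotient.out_eq' _
        exact (QuotientGroup.eq_one_iff _).mp h2
      set o := Quotient.out (1 : (P : Subgroup G) ⧸ A) with ho
      have h3 : (⟨o⁻¹ * (a : (P : Subgroup G)) * o, by
          have := hAn.conj_mem (a : (P : Subgroup G)) a.2 o⁻¹
          simpa using this⟩ : A) = (⟨o, h1⟩ : A)⁻¹ * a * ⟨o, h1⟩ := rfl
      rw [h3, map_mul, map_mul, map_inv, mul_comm (φ ⟨o, h1⟩)⁻¹, mul_assoc, inv_mul_cancel, mul_one]
    · intro q _ hq
      apply hφK
      set o := Quotient.out q with ho
      have h1 : o ∉ A := by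
        intro h2
        apply hq
        have h3 : ((o : (P : Subgroup G)) : (P : Subgroup G) ⧸ A) = q := Quotient.out_eq' q
        rw [← h3]
        exact (QuotientGroup.eq_one_iff _).mpr h2
      have h2 : (o : G)⁻¹ ∉ Subgroup.normalizer (S : Set G) := by
        intro h3
        apply h1
        have h4 : (o : G) ∈ Subgroup.normalizer (S : Set G) := by
          have := Subgroup.inv_mem _ h3
          simpa using this
        have h5 : o ∈ (Subgroup.normalizer (S : Set G)).subgroupOf (P : Subgroup G) := h4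
        rw [hSt] at h5
        exact h5
      have h3 : cj (o : G)⁻¹ S ≠ S := fun h4 => h2 (cj_eq_self_iff.mp h4)
      have h4 := (hS.cjg (o : G)⁻¹).le_centralizer hS h3
      apply h4
      rw [mem_cj]
      have h5 : ((o : G)⁻¹)⁻¹ * ((o : G)⁻¹ * (a : (P : Subgroup G)) * (o : G)) * (o : G)⁻¹ = J a := by
        show _ = (a : (P : Subgroup G)).1
        group
      show ((o : G)⁻¹)⁻¹ * ((o : G)⁻¹ * (a : (P : Subgroup G)) * (o : G)) * (o : G)⁻¹ ∈ S
      rw [h5]
      exact ha
    · intro h
      exact absurd (Finset.mem_univ _) h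
  -- surjectivity
  obtain ⟨Q, hQ⟩ := exists_sylow_normal P N
  let Sm : Subgroup N := S.subgroupOf N
  let Bm : Subgroup N := (Subgroup.centralizer (S : Set G)).subgroupOf N
  have hSm : Sm.Normal := (Subgroup.normal_subgroupOf_iff_le_normalizer hS.le).mpr hS.nor
  have hBm : Bm.Normal := by
    constructor
    intro y hy n
    exact conj_mem_centralizer (hS.nor n.2) hy
  have hinf : Sm ⊓ Bm = ⊥ := by
    rw [eq_bot_iff]
    rintro y ⟨hy1, hy2⟩
    have h1 : (y : G) ∈ S ⊓ Subgroup.centralizer (S : Set G) := ⟨hy1, hy2⟩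
    rw [hS.inf_centralizer hNm hnc, Subgroup.mem_bot] at h1
    exact Subtype.ext h1
  have hsup : Sm ⊔ Bm = ⊤ := by
    refine cover_top hNm hS _ fun g => ?_
    by_cases hg : cj g S = S
    · rw [hg]
      exact le_sup_left
    · refine le_trans ?_ le_sup_right
      intro y hy
      exact (hS.cjg g).le_centralizer hS hg hy
  have hsurj : ∀ y : Abelianization (A ⧸ K), ∃ a : A, φ.transfer (a : (P : Subgroup G)) = y := by
    intro y
    obtain ⟨z, rfl⟩ := QuotientGroup.mk_surjective y
    obtain ⟨a₀, rfl⟩ := QuotientGroup.mk_surjective z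
    let x₀ : N := ⟨J a₀, hJN a₀⟩
    have hx₀ : x₀ ∈ (Q : Subgroup N) := (hQ x₀).mpr (hJP a₀)
    obtain ⟨u₁, u₂, hu₁, hu₂, hu⟩ := exists_mul_of_sylow Q Sm Bm hinf hsup hx₀
    let a₁ : A := ⟨⟨(u₁ : G), (hQ u₁).mp hu₁.2⟩, u₁.2⟩
    let a₂ : A := ⟨⟨(u₂ : G), (hQ u₂).mp hu₂.2⟩, u₂.2⟩
    have h0 : a₀ = a₁ * a₂ := by
      apply Subtype.ext
      apply Subtype.ext
      have h2 : ((x₀ : N) : G) = ((u₁ * u₂ : N) : G) := congrArg _ hu
      exact h2
    have h1 : φ a₂ = 1 := hφK a₂ hu₂.1
    refine ⟨a₁, ?_⟩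
    rw [htr a₁ hu₁.1]
    show φ a₁ = φ a₀
    rw [h0, map_mul, h1, mul_one]
  let ψ : A →* Abelianization (A ⧸ K) := φ.transfer.comp A.subtype
  have hψs : Function.Surjective ψ := fun y => (hsurj y)
  have hker : (commutator (P : Subgroup G)).subgroupOf A ≤ ψ.ker := by
    intro c hc
    have h1 := commutator_le_ker_of_comm φ.transfer hc
    exact h1
  have hcard : ψ.ker.index = Nat.card (Abelianization (A ⧸ K)) := by
    rw [Subgroup.index_ker, MonoidHom.range_eq_top.mpr hψs]
    exact Nat.card_congr Subgroup.topEquiv.toEquiv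
  have hd1 : Nat.card (Abelianization (A ⧸ K)) ∣ p := by
    have h3 := Subgroup.index_dvd_of_le hker
    have h4 : ((commutator (P : Subgroup G)).subgroupOf A).index = p := hrel
    rwa [hcard, h4] at h3
  have hY : IsPGroup p (A ⧸ K) := (hT.to_subgroup A).to_quotient K
  have hd2 := card_le_prime_of_commutator_index hY hd1
  exact hd2

/-- The transitive case. -/
theorem good_of_trans (P : Sylow p G) (hidx : (commutator (P : Subgroup G)).index = p ^ 2)
    (hcore : Cfsg.pPrimeCore p G = ⊥) {N S : Subgroup G} (hNm : IsMinN N) (hNp : ¬ IsPGroup p N)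
    (hCN : Subgroup.centralizer (N : Set G) = ⊥)
    (hnc : ¬ ∀ a ∈ N, ∀ b ∈ N, a * b = b * a) (hS : Mn N S) (hSN : S ≠ N)
    (htr : ∀ h : G, ∃ t ∈ (P : Subgroup G), cj h S = cj t S) : ∃ x : G, Good p x := by
  classical
  have hNn := hNm.normal
  have hT : IsPGroup p (P : Subgroup G) := P.2
  obtain ⟨g, hgN, hAi, hrel, hcA, hsup, hSt⟩ := trans_setup P hidx hcore hNm hNp hnc hS hSN htr
  let A : Subgroup (P : Subgroup G) := N.subgroupOf (P : Subgroup G)
  have hAn : A.Normal := inferInstance
  have hdK := index_dvd_prime P hNm hnc hS hrel hcA hSt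
  refine ⟨(g : G), exists_orderOf_eq P g.2, ?_⟩
  have hAne : A ≠ ⊥ := by
    intro h
    have h1 : A.index = Nat.card (P : Subgroup G) := by rw [h, Subgroup.index_bot]
    rw [hAi] at h1
    have h2 : (commutator (P : Subgroup G)).index ∣ Nat.card (P : Subgroup G) :=
      Subgroup.index_dvd_card _
    rw [hidx, ← h1] at h2
    have h3 : p ^ 2 ≤ p := Nat.le_of_dvd hp.out.pos h2
    have h4 := hp.out.two_le
    nlinarith
  refine factorization_eq_two P N g.2 hgN hAne hAi ?_
  set x : G := (g : G) with hx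
  -- elements of `N` commuting with `x` and `S` are trivial
  have hconj : ∀ h : G, ∃ k : ℤ, cj h S = cj (x ^ k) S := by
    intro h
    obtain ⟨t, ht, hht⟩ := htr h
    have h1 : (⟨t, ht⟩ : (P : Subgroup G)) ∈ zpowers g ⊔ A := by
      rw [sup_comm, hsup]
      trivial
    rw [← SetLike.mem_coe, Subgroup.mul_normal] at h1
    obtain ⟨u, hu, a, ha, hua⟩ := h1
    obtain ⟨k, rfl⟩ := hu
    refine ⟨k, ?_⟩
    have h2 : t = x ^ k * (a : G) := by
      have := congrArg Subtype.val hua
      simpa using this.symm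
    have h3 : cj (a : G) S = S := cj_eq_self_iff.mpr (hS.nor ha)
    rw [hht, h2, cj_mul, h3]
  have hfree : ∀ y ∈ N, y * x = x * y → y ∈ Subgroup.centralizer (S : Set G) → y = 1 := by
    intro y hyN hyx hyS
    have h1 : y ∈ Subgroup.centralizer (N : Set G) := by
      refine mem_centralizer_of_forall hNm hS fun h c hc => ?_
      obtain ⟨k, hk⟩ := hconj h
      rw [hk, mem_cj] at hc
      have hc1 := Subgroup.mem_centralizer_iff.mp hyS _ hc
      have hc2 : Commute y (x ^ k) := (show Commute y x from hyx).zpow_right k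
      have hc3 : y * (x ^ k)⁻¹ = (x ^ k)⁻¹ * y := hc2.inv_right
      -- `c = x^k s x^-k`
      have hc4 : c = x ^ k * ((x ^ k)⁻¹ * c * x ^ k) * (x ^ k)⁻¹ := by group
      rw [hc4]
      have hc5 : (x ^ k)⁻¹ * c * x ^ k * y = y * ((x ^ k)⁻¹ * c * x ^ k) := hc1
      calc x ^ k * ((x ^ k)⁻¹ * c * x ^ k) * (x ^ k)⁻¹ * y
          = x ^ k * ((x ^ k)⁻¹ * c * x ^ k) * ((x ^ k)⁻¹ * y) := by group
        _ = x ^ k * ((x ^ k)⁻¹ * c * x ^ k) * (y * (x ^ k)⁻¹) := by rw [hc3]
        _ = x ^ k * (((x ^ k)⁻¹ * c * x ^ k) * y) * (x ^ k)⁻¹ := by group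
        _ = x ^ k * (y * ((x ^ k)⁻¹ * c * x ^ k)) * (x ^ k)⁻¹ := by rw [hc5]
        _ = (x ^ k * y) * ((x ^ k)⁻¹ * c * x ^ k) * (x ^ k)⁻¹ := by group
        _ = (y * x ^ k) * ((x ^ k)⁻¹ * c * x ^ k) * (x ^ k)⁻¹ := by rw [hc2.eq]
        _ = y * (x ^ k * ((x ^ k)⁻¹ * c * x ^ k) * (x ^ k)⁻¹) := by group
    rw [hCN] at h1
    exact h1
  -- the embedding
  let Bm : Subgroup N := (Subgroup.centralizer (S : Set G)).subgroupOf N
  have hBm : Bm.Normal := by
    constructor
    intro y hy n
    exact conj_mem_centralizer (hS.nor n.2) hy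
  let Wm : Subgroup N := (Subgroup.centralizer ({x} : Set G)).subgroupOf N
  have hW : Nat.card ↥(N ⊓ Subgroup.centralizer ({x} : Set G)) = Nat.card Wm := by
    rw [inf_comm]
    exact (card_inf_eq _ _).symm
  rw [hW]
  let f : Wm →* (N ⧸ Bm) := (QuotientGroup.mk' Bm).comp Wm.subtype
  have hf : Function.Injective f := by
    rw [injective_iff_map_eq_one]
    intro w hw
    have h1 : (w : N) ∈ Bm := (QuotientGroup.eq_one_iff _).mp hw
    have h2 : ((w : N) : G) * x = x * ((w : N) : G) :=
      Subgroup.mem_centralizer_singleton_iff.mp w.2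
    have h3 := hfree _ (w : N).2 h2 h1
    exact Subtype.ext (Subtype.ext h3)
  have hdvd : Nat.card Wm ∣ Bm.index := Subgroup.card_dvd_of_injective f hf
  obtain ⟨Q, hQ⟩ := exists_sylow_normal P N
  have hfac := factorization_index_eq Q Bm
  -- compare with the index in `A`
  let J : A →* G := (P : Subgroup G).subtype.comp A.subtype
  let e : A →* (Q : Subgroup N) :=
    { toFun := fun a => ⟨⟨J a, a.2⟩, (hQ _).mpr (a : (P : Subgroup G)).2⟩
      map_one' := rfl
      map_mul' := fun _ _ => rfl }
  have hes : Function.Surjective e := by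
    rintro ⟨⟨y, hyN⟩, hyQ⟩
    have hyP : y ∈ (P : Subgroup G) := (hQ _).mp hyQ
    exact ⟨⟨⟨y, hyP⟩, hyN⟩, rfl⟩
  have hcomap : (Subgroup.centralizer (S : Set G)).comap J = (Bm.subgroupOf (Q : Subgroup N)).comap e := rfl
  have hidxeq : (Bm.subgroupOf (Q : Subgroup N)).index =
      ((Subgroup.centralizer (S : Set G)).comap J).index := by
    rw [hcomap, Subgroup.index_comap_of_surjective _ hes]
  have hle1 : (Bm.subgroupOf (Q : Subgroup N)).index.factorization p ≤ 1 := by
    rw [hidxeq]
    rcases (Nat.dvd_prime hp.out).mp hdK with h | h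
    · have h' : ((Subgroup.centralizer (S : Set G)).comap J).index = 1 := h
      rw [h']
      simp
    · have h' : ((Subgroup.centralizer (S : Set G)).comap J).index = p := h
      rw [h', hp.out.factorization_self]
  have hle2 := (Nat.factorization_le_iff_dvd Nat.card_pos.ne' Subgroup.index_ne_zero_of_finite).mpr hdvd p
  have : Bm.index.factorization p ≤ 1 := by
    rw [hfac]
    exact hle1
  exact hle2.trans this

/-- The forward direction of the criterion. -/
theorem forward (P : Sylow p G) (hbig : p ^ 2 ∣ Nat.card G)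
    (hcore : Cfsg.pPrimeCore p G = ⊥)
    (hcore' : (⁅(P : Subgroup G), (P : Subgroup G)⁆).normalCore = ⊥)
    (hnas : ¬ ∃ S : Subgroup G, S.Normal ∧ IsSimpleGroup S ∧ ¬ IsMulCommutative S ∧
      Subgroup.centralizer (S : Set G) = ⊥)
    (hidx : (commutator (P : Subgroup G)).index = p ^ 2) : ∃ x : G, Good p x := by
  have hne : Nontrivial G := by
    rw [← Finite.one_lt_card_iff_nontrivial]
    have h1 : 0 < Nat.card G := Nat.card_pos
    have h2 := Nat.le_of_dvd h1 hbig
    have h3 := hp.out.two_le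
    nlinarith
  -- the commutative case
  have hcomm : (∀ x y : (P : Subgroup G), x * y = y * x) → ∃ x : G, Good p x := by
    intro hc
    refine ⟨1, ⟨0, by simp⟩, ?_⟩
    have h1 : commutator (P : Subgroup G) = ⊥ := by
      rw [eq_bot_iff, _root_.commutator_def, Subgroup.commutator_le]
      intro a _ b _
      rw [Subgroup.mem_bot, commutatorElement_eq_one_iff_mul_comm]
      exact hc a b
    rw [h1, Subgroup.index_bot] at hidx
    have h2 : Subgroup.centralizer ({(1 : G)} : Set G) = ⊤ := by
      rw [eq_top_iff]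
      intro y _
      rw [Subgroup.mem_centralizer_singleton_iff]
      simp
    rw [h2, Nat.card_congr Subgroup.topEquiv.toEquiv]
    have h3 : Nat.card P = p ^ (Nat.card G).factorization p := P.card_eq_multiplicity
    have h4 : Nat.card P = p ^ 2 := hidx
    rw [h4] at h3
    exact (Nat.pow_right_injective hp.out.two_le h3).symm
  rcases reduce P hidx hcore hcore' hnas hne with h | h | ⟨N, hNm, hNp, hCN, hns⟩
  · exact h
  · exact hcomm h
  · have hnc := not_comm hcore N hNm hNp
    obtain ⟨S, hS, hSN⟩ := exists_Mn N hNm hns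
    by_cases htr : ∀ h : G, ∃ t ∈ (P : Subgroup G), cj h S = cj t S
    · exact good_of_trans P hidx hcore hNm hNp hCN hnc hS hSN htr
    · push_neg at htr
      obtain ⟨h₀, hh₀⟩ := htr
      exact hcomm (comm_of_not_transitive P hidx hcore hNm hNp hCN hS h₀ hh₀)

/-- The backward direction of the criterion. -/
theorem backward (P : Sylow p G) {x : G} (hx : ∃ k : ℕ, orderOf x = p ^ k)
    (hC : (Nat.card (Subgroup.centralizer ({x} : Set G))).factorization p = 2) :
    (commutator (P : Subgroup G)).index = p ^ 2 := by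
  classical
  obtain ⟨k, hk⟩ := hx
  let C := Subgroup.centralizer ({x} : Set G)
  -- a Sylow subgroup of `C` containing `x`
  let xc : C := ⟨x, by rw [Subgroup.mem_centralizer_singleton_iff]⟩
  have h1 : IsPGroup p (zpowers xc) := by
    refine IsPGroup.of_card (n := k) ?_
    rw [Nat.card_zpowers, Subgroup.orderOf_mk, hk]
  obtain ⟨R, hR⟩ := h1.exists_le_sylow
  have hRc : Nat.card R = p ^ 2 := by
    have := R.card_eq_multiplicity
    rw [this]
    exact congrArg _ hC
  have h2 : IsPGroup p (R.1.map C.subtype) := R.2.map C.subtype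
  obtain ⟨Q, hQ⟩ := h2.exists_le_sylow
  have hxQ : x ∈ (Q : Subgroup G) := hQ ⟨xc, hR (mem_zpowers xc), rfl⟩
  let xq : (Q : Subgroup G) := ⟨x, hxQ⟩
  -- the centralizer in `Q` has order `p²`
  have h3 : Nat.card (Subgroup.centralizer ({xq} : Set (Q : Subgroup G))) = p ^ 2 := by
    let c : Subgroup (Q : Subgroup G) := Subgroup.centralizer ({xq} : Set (Q : Subgroup G))
    have hcle : c.map (Q : Subgroup G).subtype ≤ C := by
      rintro _ ⟨t, ht, rfl⟩
      rw [Subgroup.mem_centralizer_singleton_iff]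
      exact congrArg Subtype.val (Subgroup.mem_centralizer_singleton_iff.mp ht)
    let c' : Subgroup C := (c.map (Q : Subgroup G).subtype).subgroupOf C
    have hc'p : IsPGroup p c' := by
      have h5 : IsPGroup p (c.map (Q : Subgroup G).subtype) := (Q.2.to_subgroup c).map _
      exact h5.comap_subtype
    have hRle : R.1 ≤ c' := by
      intro r hr
      have h5 : (r : G) ∈ (Q : Subgroup G) := hQ ⟨r, hr, rfl⟩
      refine ⟨⟨(r : G), h5⟩, ?_, rfl⟩
      apply Subgroup.mem_centralizer_singleton_iff.mpr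
      apply Subtype.ext
      exact Subgroup.mem_centralizer_singleton_iff.mp r.2
    have hcR : c' = R.1 := R.is_maximal' hc'p hRle
    have h6 : Nat.card c' = Nat.card c := by
      rw [Nat.card_congr (Subgroup.subgroupOfEquivOfLe hcle).toEquiv,
        Subgroup.card_map_of_injective (Q : Subgroup G).subtype_injective]
    rw [← h6, hcR]
    exact hRc
  have h4 := commutator_index_of_card_centralizer Q.2 xq h3
  let e : (P : Subgroup G) ≃* (Q : Subgroup G) := P.equiv Q
  have h5 : (commutator (Q : Subgroup G)).comap e.toMonoidHom = commutator (P : Subgroup G) := by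
    have h6 : (commutator (P : Subgroup G)).map e.toMonoidHom = commutator (Q : Subgroup G) := by
      rw [_root_.commutator_def, _root_.commutator_def, Subgroup.map_commutator,
        Subgroup.map_top_of_surjective _ e.surjective]
    rw [← h6, Subgroup.comap_map_eq_self_of_injective e.injective]
  rw [← h5, Subgroup.index_comap_of_surjective _ e.surjective]
  exact h4

/-- `|P : P'|` as a relative index. -/
theorem relIndex_eq (P : Subgroup G) : (⁅P, P⁆).relIndex P = (commutator P).index := by
  have h1 : ⁅P, P⁆.subgroupOf P = commutator P := by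
    rw [← Subgroup.map_subtype_commutator]
    exact Subgroup.comap_map_eq_self_of_injective P.subtype_injective _
  show (⁅P, P⁆.subgroupOf P).index = _
  rw [h1]

end Cfsg.Agent.Lib.PSq
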